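import Cfsg.Prelude.Def_IsolatedElements
import Cfsg.Agent.Eq.Def_IsolatedElements
import Cfsg.Agent.Eq.Def_Transfer
import Cfsg.Agent.Eq.Def_PLocal
import Cfsg.Agent.Coprime.FixOrderP
import Cfsg.Agent.Transfer.Frobenius
import Cfsg.Agent.LocalP.Isolated
import Mathlib

/-!
Isolated elements of order `p` in perfect groups: fusion of elements of order `p` and transfer.
-/

set_option autoImplicit false

open scoped Pointwise commutatorElement

namespace CfsgLib.IsolatedRankTwo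

variable {K : Type*} [Group K] [Finite K] {p : ℕ} [Fact p.Prime] {x : K}

omit [Finite K] in
/-- Two nontrivial elements of the same group of order `p` generate each other. -/
theorem mem_zpowers_of_order_p {x y : K} (hxp : x ^ p = 1) (hy : y ∈ Subgroup.zpowers x)
    (hy1 : y ≠ 1) : x ∈ Subgroup.zpowers y := by
  have hp : p.Prime := Fact.out
  have hxo : orderOf x = p := orderOf_eq_prime hxp fun h => hy1 (by simpa [h] using hy)
  obtain ⟨i, rfl⟩ := Subgroup.mem_zpowers_iff.mp hy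
  have hi : ¬ (p : ℤ) ∣ i := fun h => hy1 (orderOf_dvd_iff_zpow_eq_one.mp (by rwa [hxo]))
  obtain ⟨a, b, hab⟩ := (Nat.prime_iff_prime_int.mp hp).coprime_iff_not_dvd.mpr hi
  refine Subgroup.mem_zpowers_iff.mpr ⟨b, ?_⟩
  rw [← zpow_mul, show i * b = 1 - p * a by linarith, zpow_sub, zpow_one, zpow_mul, zpow_natCast,
    hxp, one_zpow, inv_one, mul_one]

/-- If the elements of order `p` of a Sylow subgroup are fused only inside their cosets modulo an
isolated element `x`, the group is not perfect. -/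
theorem commutator_ne_top_of_fusion (hp : p ≠ 2) (P : Sylow p K) (hdiv : p ∣ Nat.card K)
    (hiso : Cfsg.IsIsolated x) (hxP : x ∈ (P : Subgroup K)) (hxp : x ^ p = 1)
    (hfus : ∀ e ∈ (P : Subgroup K), e ^ p = 1 → ∀ g : K, g * e * g⁻¹ ∈ (P : Subgroup K) →
      g * e * g⁻¹ * e⁻¹ ∈ Subgroup.zpowers x) :
    commutator K ≠ ⊤ := by
  have hN : Cfsg.HasNormalPComplement p K := by
    refine CfsgLib.Transfer.hasNormalPComplement_iff_pLocal_centralizes.mpr fun Q hQ g hg hgc => ?_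
    rw [Subgroup.mem_centralizer_iff]
    intro v hv
    refine (CfsgLib.Coprime.fixes_of_fixes_order_p hp g hgc Q hQ hg (fun y hy hyp => ?_) v hv).symm
    obtain ⟨T, hT⟩ := hQ.exists_le_sylow
    obtain ⟨c, hc⟩ := MulAction.exists_smul_eq K P T
    have hTP : ∀ u ∈ Q, c⁻¹ * u * c ∈ (P : Subgroup K) := by
      intro u hu
      have hu' := hT hu
      rw [← hc] at hu'
      change u ∈ MulAut.conj c • (P : Subgroup K) at hu'
      rw [Subgroup.mem_pointwise_smul_iff_inv_smul_mem] at hu'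
      simpa [mul_assoc] using hu'
    have hpow : (c⁻¹ * y * c) ^ p = 1 := by
      have := conj_pow (a := c⁻¹) (b := y) (i := p)
      simpa [hyp] using this
    have hgy : g * y * g⁻¹ ∈ Q := (Subgroup.mem_normalizer_iff.mp hg y).mp hy
    have hi := hfus _ (hTP y hy) hpow (c⁻¹ * g * c) (by
      have := hTP _ hgy
      rwa [show c⁻¹ * g * c * (c⁻¹ * y * c) * (c⁻¹ * g * c)⁻¹ = c⁻¹ * (g * y * g⁻¹) * c by group])
    rw [show c⁻¹ * g * c * (c⁻¹ * y * c) * (c⁻¹ * g * c)⁻¹ * (c⁻¹ * y * c)⁻¹ =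
      c⁻¹ * ⁅g, y⁆ * c by rw [commutatorElement_def]; group] at hi
    have hgyQ : ⁅g, y⁆ ∈ Q := by
      rw [commutatorElement_def]; exact mul_mem hgy (inv_mem hy)
    by_cases hgy1 : ⁅g, y⁆ = 1
    · exact commutatorElement_eq_one_iff_mul_comm.mp hgy1
    -- otherwise `c x c⁻¹` lies in `Q` and is fixed by `g`
    have hne : c⁻¹ * ⁅g, y⁆ * c ≠ 1 := fun h => hgy1 (by
      have := congrArg (fun t => c * t * c⁻¹) h
      simpa [mul_assoc] using this)
    obtain ⟨j, hj⟩ := Subgroup.mem_zpowers_iff.mp (mem_zpowers_of_order_p hxp hi hne)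
    have hcx : c * x * c⁻¹ ∈ Q := by
      have h1 : c * x * c⁻¹ = ⁅g, y⁆ ^ j := by
        rw [← hj, ← conj_zpow]; group
      rw [h1]; exact zpow_mem hgyQ j
    have hgx := CfsgLib.LocalP.isolated_eq_of_mem hiso P.2 hxP (g := c⁻¹ * g * c) (by
      have := hTP _ ((Subgroup.mem_normalizer_iff.mp hg _).mp hcx)
      rwa [show c⁻¹ * (g * (c * x * c⁻¹) * g⁻¹) * c = c⁻¹ * g * c * x * (c⁻¹ * g * c)⁻¹ by
        group] at this)
    have hgx' : Commute g (c * x * c⁻¹) := by
      show g * (c * x * c⁻¹) = c * x * c⁻¹ * g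
      calc g * (c * x * c⁻¹) = c * ((c⁻¹ * g * c) * x * (c⁻¹ * g * c)⁻¹) * (c⁻¹ * g) := by group
        _ = c * x * c⁻¹ * g := by rw [hgx]; group
    obtain ⟨i, hi'⟩ := Subgroup.mem_zpowers_iff.mp hi
    have hcom : Commute g ⁅g, y⁆ := by
      have h2 : (c * x * c⁻¹) ^ i = ⁅g, y⁆ := by rw [conj_zpow, hi']; group
      exact h2 ▸ hgx'.zpow_right i
    exact CfsgLib.Coprime.commute_of_commute_commutator (a := g) (x := y)
      (by simpa [commutatorElement_def] using hcom.eq)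
      (CfsgLib.LocalP.coprime_orderOf_of_mem hQ (by simpa [commutatorElement_def] using hgyQ) hgc)
  intro htop
  obtain ⟨P', N, hNn, hNc⟩ := hN
  have hnt : Nontrivial (P' : Subgroup K) :=
    (Subgroup.nontrivial_iff_ne_bot _).mpr (P'.ne_bot_of_dvd_card hdiv)
  have hnil : Group.IsNilpotent (P' : Subgroup K) := P'.isPGroup'.isNilpotent
  have hlt := Group.IsSolvable.commutator_lt_top_of_nontrivial (G := (P' : Subgroup K))
  let f : K →* (P' : Subgroup K) := hNc.symm.QuotientMulEquiv.toMonoidHom.comp (QuotientGroup.mk' N)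
  have hf : Function.Surjective f :=
    hNc.symm.QuotientMulEquiv.surjective.comp (QuotientGroup.mk'_surjective N)
  apply hlt.ne
  rw [commutator_def, ← MonoidHom.range_eq_top.mpr hf, MonoidHom.range_eq_map,
    ← Subgroup.map_commutator, ← commutator_def, htop]

/-- In a perfect group an isolated element of order `p` lies in every kernel of a map from a
Sylow subgroup containing it to a commutative group. -/
theorem eq_one_of_hom_comm (hperf : commutator K = ⊤) (P : Sylow p K) (hiso : Cfsg.IsIsolated x)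
    (hxP : x ∈ (P : Subgroup K)) (hxp : x ^ p = 1) {A : Type*} [CommGroup A]
    (θ : ↥(P : Subgroup K) →* A) : θ ⟨x, hxP⟩ = 1 := by
  have hp : p.Prime := Fact.out
  have hpow : ∀ k : ℕ, ∀ g : K, g⁻¹ * x ^ k * g ∈ (P : Subgroup K) → g⁻¹ * x ^ k * g = x ^ k := by
    intro k g hk
    by_cases hd : p ∣ k
    · obtain ⟨l, rfl⟩ := hd
      simp [pow_mul, hxp]
    obtain ⟨a, b, hab⟩ := (Nat.prime_iff_prime_int.mp hp).coprime_iff_not_dvd.mpr
      (show ¬ (p : ℤ) ∣ (k : ℤ) by exact_mod_cast hd)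
    have hx : x = (x ^ k) ^ b := by
      rw [← zpow_natCast x k, ← zpow_mul, show (k : ℤ) * b = 1 - p * a by linarith, zpow_sub,
        zpow_one, zpow_mul, zpow_natCast, hxp, one_zpow, inv_one, mul_one]
    have h1 : g⁻¹ * x * g⁻¹⁻¹ ∈ (P : Subgroup K) := by
      rw [hx, ← conj_zpow]
      exact zpow_mem (by simpa using hk) b
    have h2 := CfsgLib.LocalP.isolated_eq_of_mem hiso P.2 hxP (g := g⁻¹) h1
    rw [show g⁻¹ * x ^ k * g = (g⁻¹ * x * g⁻¹⁻¹) ^ k by rw [conj_pow, inv_inv], h2]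
  have htr : MonoidHom.transfer θ x = 1 :=
    MonoidHom.mem_ker.mp (Abelianization.commutator_subset_ker _ (hperf ▸ Subgroup.mem_top x))
  rw [MonoidHom.transfer_eq_pow θ x hpow] at htr
  have h3 : θ ⟨x, hxP⟩ ^ (P : Subgroup K).index = 1 := by
    rw [← map_pow]; exact htr
  have h4 : θ ⟨x, hxP⟩ ^ p = 1 := by
    rw [← map_pow, ← map_one θ]; exact congrArg θ (Subtype.ext hxp)
  have h5 := Nat.dvd_gcd (orderOf_dvd_of_pow_eq_one h4) (orderOf_dvd_of_pow_eq_one h3)
  rw [(hp.coprime_iff_not_dvd.mpr P.not_dvd_index).gcd_eq_one, Nat.dvd_one,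
    orderOf_eq_one_iff] at h5
  exact h5

/-- In a perfect group an isolated element of order `p` lies in the derived group of a Sylow
subgroup containing it. -/
theorem mem_commutator_sylow (hperf : commutator K = ⊤) (P : Sylow p K) (hiso : Cfsg.IsIsolated x)
    (hxP : x ∈ (P : Subgroup K)) (hxp : x ^ p = 1) :
    (⟨x, hxP⟩ : ↥(P : Subgroup K)) ∈ commutator ↥(P : Subgroup K) :=
  (QuotientGroup.eq_one_iff _).mp (eq_one_of_hom_comm hperf P hiso hxP hxp Abelianization.of)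

/-- A power map of the Sylow subgroup which is multiplicative with values in the group of an
isolated element is trivial in a perfect group. -/
theorem pow_eq_one_of_powerHom (hperf : commutator K = ⊤) (P : Sylow p K)
    (hiso : Cfsg.IsIsolated x) (hxp : x ^ p = 1) (m : ℕ)
    (hval : ∀ y ∈ (P : Subgroup K), y ^ p ^ m ∈ Subgroup.zpowers x)
    (hmul : ∀ a ∈ (P : Subgroup K), ∀ b ∈ (P : Subgroup K),
      (a * b) ^ p ^ m = a ^ p ^ m * b ^ p ^ m) :
    ∀ y ∈ (P : Subgroup K), y ^ p ^ m = 1 := by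
  classical
  have hp : p.Prime := Fact.out
  let θ : ↥(P : Subgroup K) →* ↥(Subgroup.zpowers x) :=
    MonoidHom.mk' (fun y => ⟨(y : K) ^ p ^ m, hval y y.2⟩)
      (fun a b => Subtype.ext (hmul a a.2 b b.2))
  intro y hy
  letI : CommGroup ↥(Subgroup.zpowers x) := IsCyclic.commGroup
  haveI : Fintype (K ⧸ (P : Subgroup K)) := Fintype.ofFinite _
  haveI : Fintype (Quotient (MulAction.orbitRel (Subgroup.zpowers y) (K ⧸ (P : Subgroup K)))) :=
    Fintype.ofFinite _
  have htr : MonoidHom.transfer θ y = 1 :=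
    MonoidHom.mem_ker.mp (Abelianization.commutator_subset_ker _ (hperf ▸ Subgroup.mem_top y))
  rw [MonoidHom.transfer_eq_prod_quotient_orbitRel_zpowers_quot] at htr
  have hfac : ∀ (r : ℕ) (g : K) (h : g⁻¹ * y ^ r * g ∈ (P : Subgroup K)),
      θ ⟨g⁻¹ * y ^ r * g, h⟩ = θ ⟨y, hy⟩ ^ r := by
    intro r g h
    apply Subtype.ext
    show (g⁻¹ * y ^ r * g) ^ p ^ m = (((θ ⟨y, hy⟩) ^ r : ↥(Subgroup.zpowers x)) : K)
    rw [SubmonoidClass.coe_pow]
    show _ = (y ^ p ^ m) ^ r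
    rw [← pow_mul, show g⁻¹ * y ^ r * g = g⁻¹ * y ^ r * g⁻¹⁻¹ by group, conj_pow, ← pow_mul,
      mul_comm r]
    obtain ⟨i, hi⟩ := Subgroup.mem_zpowers_iff.mp (hval _ (pow_mem hy r))
    rw [← pow_mul, mul_comm r] at hi
    by_cases h1 : y ^ (p ^ m * r) = 1
    · simp [h1]
    obtain ⟨j, hj⟩ := Subgroup.mem_zpowers_iff.mp (hval _ (show g⁻¹ * y ^ r * g⁻¹⁻¹ ∈
      (P : Subgroup K) by simpa using h))
    rw [conj_pow, ← pow_mul, mul_comm r] at hj
    obtain ⟨l, hl⟩ := Subgroup.mem_zpowers_iff.mp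
      (mem_zpowers_of_order_p hxp (Subgroup.mem_zpowers_iff.mpr ⟨i, hi⟩) h1)
    have hc : Commute x (g⁻¹ * x * g⁻¹⁻¹) := by
      rw [← hl, ← conj_zpow, ← hj, hl]
      exact ((Commute.refl x).zpow_right j).zpow_right l
    rw [← hi, ← conj_zpow, hiso g⁻¹ hc]
  rw [Finset.prod_congr rfl (fun q _ => hfac _ _ _), Finset.prod_pow_eq_pow_sum,
    ← Subgroup.index_eq_sum_minimalPeriod (P : Subgroup K) y] at htr
  obtain ⟨k, hk⟩ := IsPGroup.iff_orderOf.mp P.2 ⟨y, hy⟩
  have h4 : θ ⟨y, hy⟩ ^ p ^ k = 1 := by rw [← hk, ← map_pow, pow_orderOf_eq_one, map_one]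
  have h5 := Nat.dvd_gcd (orderOf_dvd_of_pow_eq_one h4) (orderOf_dvd_of_pow_eq_one htr)
  rw [((hp.coprime_iff_not_dvd.mpr P.not_dvd_index).pow_left k).gcd_eq_one, Nat.dvd_one,
    orderOf_eq_one_iff] at h5
  exact congrArg Subtype.val h5

end CfsgLib.IsolatedRankTwo
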