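import Cfsg.Agent.PGroup.MaxClass.Sylow
import Cfsg.Agent.Eq.Def_CaseTheorems
import Cfsg.Prelude.Def_CaseTheorems
import Mathlib

/-!
Facts on `3`-groups of maximal class: all two-step centralisers coincide, subgroups containing a good
element, automorphisms fixing the centre.
-/

set_option autoImplicit false

open scoped commutatorElement

namespace CfsgLib.IsolatedRankTwo

open CfsgLib.PGroup CfsgLib.PGroup.MaxClass

variable {Q : Type*} [Group Q] [Finite Q] [Fact (Nat.Prime 3)] {n : ℕ}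

theorem twoStep_eq (h : IsMaxCl 3 Q n) {j : ℕ} (hj : 2 ≤ j) (hjn : j + 2 ≤ n) :
    twoStep Q j = twoStep Q 2 := by
  rcases eq_or_lt_of_le hj with rfl | hj'
  · rfl
  obtain ⟨i, hi, hi', he⟩ := h.lines j (by omega) hjn
  have : i = 2 := by simp at hi'; omega
  rwa [this] at he

theorem good_of_notMem (h : IsMaxCl 3 Q n) {e : Q} (he : e ∉ twoStep Q 2) : Good Q n e :=
  ⟨fun hc => he (gam_two_le_twoStep (by norm_num) hc),
    fun _ hj hjn => by rwa [twoStep_eq h hj hjn]⟩

theorem twoStep_normal (h : IsMaxCl 3 Q n) : (twoStep Q 2).Normal := by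
  haveI := h.isPGroup.isNilpotent
  have := h.four_le
  exact Subgroup.NormalizerCondition.normal_of_coatom _ Group.normalizerCondition_of_isNilpotent
    (isCoatom_of_index_eq (p := 3) (h.index_twoStep le_rfl (by omega)))

theorem pow_three_mem_twoStep (h : IsMaxCl 3 Q n) (u : Q) : u ^ 3 ∈ gam Q 2 := h.pow_mem_gam_two u

/-- An element is a power of a good one times an element of the first two-step centraliser. -/
theorem exists_decomp (h : IsMaxCl 3 Q n) {e : Q} (he : e ∉ twoStep Q 2) (u : Q) :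
    ∃ k : ℕ, k < 3 ∧ ∃ w ∈ twoStep Q 2, u = e ^ k * w := by
  haveI := twoStep_normal h
  have h4 := h.four_le
  have htop : Subgroup.zpowers e ⊔ twoStep Q 2 = ⊤ :=
    (isCoatom_of_index_eq (p := 3) (h.index_twoStep le_rfl (by omega))).2 _ (right_lt_sup.2
      fun hle => he (hle (Subgroup.mem_zpowers e)))
  obtain ⟨z, hz, w, hw, rfl⟩ := Subgroup.mem_sup_of_normal_right.1 (htop ▸ Subgroup.mem_top u :
    u ∈ Subgroup.zpowers e ⊔ twoStep Q 2)
  obtain ⟨k, hk⟩ := mem_powers_iff_mem_zpowers.2 hz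
  refine ⟨k % 3, Nat.mod_lt _ (by norm_num), (e ^ 3) ^ (k / 3) * w,
    mul_mem (pow_mem (gam_two_le_twoStep (by norm_num) (h.pow_mem_gam_two e)) _) hw, ?_⟩
  rw [← mul_assoc, ← pow_mul, ← pow_add, Nat.mod_add_div]
  exact congrArg (· * w) hk.symm

/-- A power of a good element lying in `P₁` has exponent divisible by `3`. -/
theorem dvd_of_pow_mem (h : IsMaxCl 3 Q n) {e : Q} (he : e ∉ twoStep Q 2) {k : ℕ}
    (hk : e ^ k ∈ twoStep Q 2) : 3 ∣ k := by
  by_contra hd
  have h3 : e ^ 3 ∈ twoStep Q 2 := gam_two_le_twoStep (by norm_num) (h.pow_mem_gam_two e)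
  have hk' : e ^ (k % 3) ∈ twoStep Q 2 := by
    have := mul_mem hk (inv_mem (pow_mem h3 (k / 3)))
    rwa [← pow_mul, mul_inv_eq_iff_eq_mul.2 (show e ^ k = e ^ (k % 3) * e ^ (3 * (k / 3)) by
      rw [← pow_add, Nat.mod_add_div])] at this
  rcases (show k % 3 = 1 ∨ k % 3 = 2 by omega) with h1 | h1
  · exact he (by simpa [h1] using hk')
  · rw [h1] at hk'
    refine he ?_
    have := mul_mem (inv_mem hk') h3
    rwa [show (e ^ 2)⁻¹ * e ^ 3 = e by group] at this

/-- Iterated cubes move down the series two steps at a time. -/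
theorem pow_three_pow (h : IsMaxCl 3 Q n) {i : ℕ} (hi : 2 ≤ i) {u : Q} (hu : u ∈ gam Q i) :
    ∀ m : ℕ, u ^ 3 ^ m ∈ gam Q (i + 2 * m) := by
  obtain ⟨x, hx⟩ := h.exists_good
  intro m
  induction m with
  | zero => simpa using hu
  | succ m ih =>
    rw [pow_succ, pow_mul]
    exact gam_anti (by omega) (h.pow_mem_gam hx (show 2 ≤ i + 2 * m by omega) ih)

/-- For `n` even, elements of `P₁` outside `γ₂` have large order. -/
theorem pow_ne_one_of_twoStep (h : IsMaxCl 3 Q n) (hn : Even n) (hrk : Cfsg.PRankLE 3 2 Q) {s : Q}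
    (hs : s ∈ twoStep Q 2) (hs' : s ∉ gam Q 2) : s ^ 3 ^ (n / 2 - 1) ≠ 1 := by
  have h4 := h.four_le
  obtain ⟨x, hx⟩ := h.exists_good
  obtain ⟨t, rfl⟩ := hn
  intro hc
  by_cases ht : t = 2
  · subst ht
    rw [show (2 + 2) / 2 - 1 = 1 from rfl, pow_one] at hc
    -- `P₁` would be elementary abelian of order `27`
    have hcomm : ∀ a ∈ twoStep Q 2, ∀ b ∈ twoStep Q 2, Commute a b := by
      have hsg : ∀ g ∈ gam Q 2, Commute s g := fun g hg =>
        commutatorElement_eq_one_iff_commute.1 (h.mem_gam_one le_rfl (mem_twoStep.1 hs g hg))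
      have hgg : ∀ g ∈ gam Q 2, ∀ g' ∈ gam Q 2, Commute g g' := fun g hg g' hg' =>
        commutatorElement_eq_one_iff_commute.1
          (h.mem_gam_one le_rfl (comm_mem_gam (by norm_num) (by norm_num) hg hg'))
      have hc' : ∀ a ∈ twoStep Q 2, ∀ g ∈ gam Q 2, Commute a g := fun a ha g hg =>
        commutatorElement_eq_one_iff_commute.1 (h.mem_gam_one le_rfl (mem_twoStep.1 ha g hg))
      intro a ha b hb
      rw [h.eq_of_index (h.index_twoStep le_rfl (by omega)) hs hs',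
        Subgroup.mem_sup_of_normal_right] at hb
      obtain ⟨z, hz, g, hg, rfl⟩ := hb
      obtain ⟨i, rfl⟩ := Subgroup.mem_zpowers_iff.1 hz
      refine Commute.mul_right (Commute.zpow_right ?_ i) (hc' a ha g hg)
      rw [h.eq_of_index (h.index_twoStep le_rfl (by omega)) hs hs',
        Subgroup.mem_sup_of_normal_right] at ha
      obtain ⟨z', hz', g', hg', rfl⟩ := ha
      obtain ⟨i', rfl⟩ := Subgroup.mem_zpowers_iff.1 hz'
      exact ((Commute.refl s).zpow_left i').mul_left (hsg g' hg').symm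
    have hexp : ∀ a ∈ twoStep Q 2, a ^ 3 = 1 := by
      intro a ha
      rw [h.eq_of_index (h.index_twoStep le_rfl (by omega)) hs hs',
        Subgroup.mem_sup_of_normal_right] at ha
      obtain ⟨z, hz, g, hg, rfl⟩ := ha
      obtain ⟨i, rfl⟩ := Subgroup.mem_zpowers_iff.1 hz
      rw [(hcomm _ (zpow_mem hs i) _ (gam_two_le_twoStep (by norm_num) hg)).mul_pow,
        ← zpow_natCast, ← zpow_mul, mul_comm, zpow_mul, zpow_natCast, hc, one_zpow, one_mul]
      exact h.mem_gam_one (by omega) (h.pow_mem_gam hx le_rfl hg)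
    have h1 := hrk (twoStep Q 2)
      ⟨⟨fun a b => Subtype.ext (hcomm a a.2 b b.2)⟩⟩ hexp
    have h2 := (twoStep Q 2).card_mul_index
    rw [h.index_twoStep le_rfl (by omega), h.card_eq] at h2
    norm_num at h1 h2 ⊢
    omega
  obtain ⟨hs3, hs4⟩ := h.pow_of_mem_twoStep hx hs hs'
  rw [show min 3 (t + t - 1) = 3 by omega] at hs3
  have key : ∀ m, m + 2 ≤ t → (s ^ 3) ^ 3 ^ m ∈ gam Q (3 + 2 * m) ∧
      (s ^ 3) ^ 3 ^ m ∉ gam Q (3 + 2 * m + 1) := by
    intro m
    induction m with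
    | zero => exact fun _ => by simpa using ⟨hs3, hs4 (by omega)⟩
    | succ m ih =>
      intro hm
      obtain ⟨h1, h2⟩ := ih (by omega)
      rw [show (s ^ 3) ^ 3 ^ (m + 1) = ((s ^ 3) ^ 3 ^ m) ^ 3 by
        rw [← pow_mul (s ^ 3), ← pow_succ]]
      refine ⟨gam_anti (by omega) (h.pow_mem_gam hx (by omega) h1), ?_⟩
      have h5 := h.pow_notMem_gam hx (by omega) h1 h2 (by omega)
      rwa [show 3 + 2 * (m + 1) + 1 = 3 + 2 * m + 3 by omega]
  refine (key (t - 2) (by omega)).2 ?_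
  rw [← pow_mul, ← pow_succ', show t - 2 + 1 = (t + t) / 2 - 1 by omega, hc]
  exact one_mem _

/-- Elements of `γ₂` with central cube. -/
theorem mem_gam_of_pow (h : IsMaxCl 3 Q n) {u : Q} (hu : u ∈ gam Q 2)
    (hu3 : u ^ 3 ∈ gam Q (n - 1)) : u ∈ gam Q (n - 3) := by
  obtain ⟨x, hx⟩ := h.exists_good
  have key : ∀ i, 2 ≤ i → i ≤ n - 3 → u ∈ gam Q i := by
    intro i hi
    induction i, hi using Nat.le_induction with
    | base => exact fun _ => hu
    | succ i hi ih =>
      intro hin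
      by_contra hc
      exact h.pow_notMem_gam hx hi (ih (by omega)) hc (by omega) (gam_anti (by omega) hu3)
  rcases le_or_gt (n - 3) 2 with hn | hn
  · exact gam_anti hn hu
  · exact key _ hn.le le_rfl

/-- For `n` even, elements of `P₁` with central cubes commute. -/
theorem commute_of_cubes (h : IsMaxCl 3 Q n) (hn : Even n) {a b : Q} (ha : a ∈ twoStep Q 2)
    (hb : b ∈ twoStep Q 2) (ha3 : a ^ 3 ∈ gam Q (n - 1)) (hb3 : b ^ 3 ∈ gam Q (n - 1)) :
    Commute a b := by
  have h4 := h.four_le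
  obtain ⟨t, rfl⟩ := hn
  by_cases ht : t = 2
  · subst ht
    by_cases hb2 : b ∈ gam Q 2
    · exact commutatorElement_eq_one_iff_commute.1 (h.mem_gam_one le_rfl (mem_twoStep.1 ha b hb2))
    · rw [h.eq_of_index (h.index_twoStep le_rfl (by omega)) hb hb2,
        Subgroup.mem_sup_of_normal_right] at ha
      obtain ⟨z, hz, g, hg, rfl⟩ := ha
      obtain ⟨i, rfl⟩ := Subgroup.mem_zpowers_iff.1 hz
      exact ((Commute.refl b).zpow_left i).mul_left
        (commutatorElement_eq_one_iff_commute.1 (h.mem_gam_one le_rfl (mem_twoStep.1 hb g hg))).symm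
  obtain ⟨x, hx⟩ := h.exists_good
  have hin : ∀ c ∈ twoStep Q 2, c ^ 3 ∈ gam Q (t + t - 1) → c ∈ gam Q (t + t - 3) := by
    intro c hc hc3
    refine mem_gam_of_pow h ?_ hc3
    by_contra hc2
    exact (h.pow_of_mem_twoStep hx hc hc2).2 (by omega) (gam_anti (by omega) hc3)
  exact commutatorElement_eq_one_iff_commute.1 (h.mem_gam_one (show t + t ≤ t + t - 3 + (t + t - 3)
    by omega) (comm_mem_gam (by omega) (by omega) (hin a ha ha3) (hin b hb hb3)))

/-- Centralising a good element modulo a term of the series. -/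
theorem mem_lineGroup_of_comm (h : IsMaxCl 3 Q n) {e : Q} (he : e ∉ twoStep Q 2) {m : ℕ}
    (hm : 3 ≤ m) (hmn : m ≤ n) {u : Q} (hu : ⁅u, e⁆ ∈ gam Q m) : u ∈ lineGroup Q e (m - 1) := by
  obtain ⟨k, -, w, hw, rfl⟩ := exists_decomp h he u
  have hwe : ⁅w, e⁆ ∈ gam Q m := by
    have h1 := (gam_normal (G := Q) m).conj_mem _ hu (e ^ k)⁻¹
    rwa [show (e ^ k)⁻¹ * ⁅e ^ k * w, e⁆ * (e ^ k)⁻¹⁻¹ = ⁅w, e⁆ * (e * (e ^ k)⁻¹ * e⁻¹ * e ^ k) by
      simp only [commutatorElement_def]; group, show e * (e ^ k)⁻¹ * e⁻¹ * e ^ k = 1 by group,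
      mul_one] at h1
  have hw2 : w ∈ gam Q 2 := by
    by_contra hw2
    exact h.comm_notMem_one (good_of_notMem h he) hw hw2 (gam_anti hm hwe)
  exact mul_mem (pow_mem (mem_lineGroup_self e _) k)
    (gam_le_lineGroup e _ (h.mem_gam_of_comm (good_of_notMem h he) hmn hw2 hwe))

/-- The elements of `⟨e⟩γ_j` in `P₁`. -/
theorem lineGroup_inf_twoStep (h : IsMaxCl 3 Q n) {e : Q} (he : e ∉ twoStep Q 2) {j : ℕ}
    (hjn : j ≤ n - 1) (hj : 2 ≤ j) {u : Q} (hu : u ∈ lineGroup Q e j) (hu' : u ∈ twoStep Q 2) :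
    u ∈ gam Q j := by
  rw [lineGroup, Subgroup.mem_sup_of_normal_right] at hu
  obtain ⟨z, hz, g, hg, rfl⟩ := hu
  obtain ⟨k, rfl⟩ := mem_powers_iff_mem_zpowers.2 hz
  have hg' : g ∈ twoStep Q 2 := gam_two_le_twoStep (by norm_num) (gam_anti hj hg)
  have h1 := mul_mem hu' (inv_mem hg')
  rw [mul_inv_cancel_right] at h1
  obtain ⟨l, rfl⟩ := dvd_of_pow_mem h he h1
  refine mul_mem ?_ hg
  show e ^ (3 * l) ∈ gam Q j
  rw [pow_mul]
  exact pow_mem (gam_anti hjn (h.pow_mem_gam_last (good_of_notMem h he))) l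

/-- Subgroups containing a good element. -/
theorem eq_lineGroup (h : IsMaxCl 3 Q n) {t : Q} (ht : t ∉ twoStep Q 2) {W : Subgroup Q}
    (htW : t ∈ W) {k : ℕ} (hW : Nat.card W = 3 ^ k) (hk : 2 ≤ k) (hkn : k < n) :
    W = lineGroup Q t (n - k + 1) := by
  have h4 := h.four_le
  have hgood := good_of_notMem h ht
  have hfull : ∀ d j, j + d = n → 2 ≤ j → (∃ u ∈ W, u ∈ gam Q j ∧ u ∉ gam Q (j + 1)) →
      gam Q j ≤ W := by
    intro d
    induction d with
    | zero => intro j hj _ _; rw [h.gam_eq_bot (by omega)]; exact bot_le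
    | succ d ih =>
      rintro j hj hj2 ⟨u, huW, hu, hu'⟩ y hy
      have hnext : gam Q (j + 1) ≤ W := by
        rcases le_or_gt (j + 2) n with hjn | hjn
        · refine ih (j + 1) (by omega) (by omega) ⟨⁅u, t⁆, ?_, comm_mem_gam_succ (by omega) hu t,
            h.comm_notMem hgood hj2 hjn hu hu'⟩
          rw [commutatorElement_def]
          exact mul_mem (mul_mem (mul_mem huW htW) (inv_mem huW)) (inv_mem htW)
        · rw [h.gam_eq_bot (by omega)]; exact bot_le
      obtain ⟨e, he⟩ := h.exists_pow hj2 hu hu' hy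
      have := mul_mem (pow_mem huW e) (hnext he)
      rwa [mul_inv_cancel_left] at this
  have hsearch : ∀ j, 2 ≤ j → j ≤ n →
      (∃ i, 2 ≤ i ∧ i < j ∧ W ⊓ gam Q 2 = gam Q i) ∨ W ⊓ gam Q 2 ≤ gam Q j := by
    intro j hj
    induction j, hj using Nat.le_induction with
    | base => exact fun _ => Or.inr inf_le_right
    | succ j hj ih =>
      intro hjn
      rcases ih (by omega) with ⟨i, hi, hij, he⟩ | hle
      · exact Or.inl ⟨i, hi, by omega, he⟩
      by_cases hex : ∃ u ∈ W ⊓ gam Q 2, u ∉ gam Q (j + 1)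
      · obtain ⟨u, hu, hu'⟩ := hex
        refine Or.inl ⟨j, hj, by omega, le_antisymm hle ?_⟩
        exact le_inf (hfull (n - j) j (by omega) hj ⟨u, hu.1, hle hu, hu'⟩) (gam_anti hj)
      · push Not at hex
        exact Or.inr hex
  obtain ⟨i, hi, hin, heq⟩ : ∃ i, 2 ≤ i ∧ i ≤ n ∧ W ⊓ gam Q 2 = gam Q i := by
    rcases hsearch n (by omega) le_rfl with ⟨i, hi, hin, he⟩ | hle
    · exact ⟨i, hi, hin.le, he⟩
    · exact ⟨n, by omega, le_rfl, le_antisymm hle (by rw [h.gam_eq_bot le_rfl]; exact bot_le)⟩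
  have hLW : lineGroup Q t i ≤ W := sup_le (Subgroup.zpowers_le.2 htW) (heq ▸ inf_le_left)
  have hWL : W ≤ lineGroup Q t i := by
    intro u hu
    obtain ⟨a, -, w, hw, rfl⟩ := exists_decomp h ht u
    have hwW : w ∈ W := by
      have := mul_mem (inv_mem (pow_mem htW a)) hu
      rwa [inv_mul_cancel_left] at this
    by_cases hw2 : w ∈ gam Q 2
    · exact mul_mem (pow_mem (mem_lineGroup_self t i) a) (gam_le_lineGroup t i (heq ▸ ⟨hwW, hw2⟩))
    exfalso
    have hc : ⁅w, t⁆ ∈ W ⊓ gam Q 2 := by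
      refine ⟨(?_ : ⁅w, t⁆ ∈ W), comm_mem_gam_succ le_rfl (gam_one (G := Q) ▸ Subgroup.mem_top w) t⟩
      rw [commutatorElement_def]
      exact mul_mem (mul_mem (mul_mem hwW htW) (inv_mem hwW)) (inv_mem htW)
    have hi2 : i = 2 := by
      by_contra hi2
      rw [heq] at hc
      exact h.comm_notMem_one hgood hw hw2 (gam_anti (by omega) hc)
    have htop : W = ⊤ := by
      rw [← top_le_iff]
      intro g _
      obtain ⟨b, -, w', hw', rfl⟩ := exists_decomp h ht g
      refine mul_mem (pow_mem htW b) ?_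
      rw [h.eq_of_index (h.index_twoStep le_rfl (by omega)) hw hw2] at hw'
      exact sup_le (Subgroup.zpowers_le.2 hwW) (hi2 ▸ heq ▸ inf_le_left) hw'
    rw [htop, Subgroup.card_top, h.card_eq] at hW
    have := Nat.pow_right_injective (le_refl 2 |>.trans (by norm_num : 2 ≤ 3)) hW
    omega
  have hWeq : W = lineGroup Q t i := le_antisymm hWL hLW
  have hin1 : i + 1 ≤ n := by
    by_contra hc
    have hin' : i = n := by omega
    subst hin'
    have h3 : t ^ 3 = 1 := by
      have : t ^ 3 ∈ W ⊓ gam Q 2 := ⟨pow_mem htW 3, h.pow_mem_gam_two t⟩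
      rw [heq] at this
      exact h.mem_gam_one le_rfl this
    have : W = Subgroup.zpowers t := by
      rw [hWeq, lineGroup, h.gam_eq_bot le_rfl, sup_bot_eq]
    rw [this, Nat.card_zpowers] at hW
    have h5 := Nat.le_of_dvd (by norm_num) (hW ▸ orderOf_dvd_of_pow_eq_one h3)
    have h6 := Nat.pow_le_pow_right (show 0 < 3 by norm_num) hk
    omega
  rw [hWeq, h.card_lineGroup hgood (by omega) hin1] at hW
  have := Nat.pow_right_injective (show 2 ≤ 3 by norm_num) hW
  rwa [show n - k + 1 = i by omega]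

theorem map_gam (φ : MulAut Q) {i : ℕ} {u : Q} (hu : u ∈ gam Q i) : φ u ∈ gam Q i := by
  rw [← gam_map φ.toMonoidHom φ.surjective i]
  exact Subgroup.mem_map_of_mem _ hu

theorem map_twoStep (φ : MulAut Q) {j : ℕ} {u : Q} (hu : u ∈ twoStep Q j) : φ u ∈ twoStep Q j := by
  rw [mem_twoStep] at hu ⊢
  intro y hy
  have h1 := map_gam φ (hu (φ⁻¹ y) (map_gam φ⁻¹ hy))
  rwa [map_commutatorElement, MulAut.apply_inv_self] at h1

/-- For `n` even an automorphism fixing a central element other than `1` fixes `P₁ / γ₂`. -/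
theorem fix_twoStep_mod (h : IsMaxCl 3 Q n) (hn : Even n) (φ : MulAut Q) {x0 : Q}
    (hx0 : x0 ∈ gam Q (n - 1)) (hx1 : x0 ≠ 1) (hfix : φ x0 = x0) {s : Q} (hs : s ∈ twoStep Q 2) :
    φ s * s⁻¹ ∈ gam Q 2 := by
  have h4 := h.four_le
  by_cases hs' : s ∈ gam Q 2
  · exact mul_mem (map_gam φ hs') (inv_mem hs')
  obtain ⟨e, hgood⟩ := h.exists_good
  have he : e ∉ twoStep Q 2 := hgood.2 2 le_rfl (by omega)
  obtain ⟨k, hk3, v, hv, hφe⟩ := exists_decomp h he (φ e)
  have hk0 : k ≠ 0 := by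
    rintro rfl
    rw [pow_zero, one_mul] at hφe
    have := map_twoStep φ⁻¹ (hφe ▸ hv : φ e ∈ twoStep Q 2)
    rw [MulAut.inv_apply_self] at this
    exact he this
  have hP1 := h.eq_of_index (h.index_twoStep le_rfl (by omega)) hs hs'
  obtain ⟨z, hz, w, hw, hφs⟩ := Subgroup.mem_sup_of_normal_right.1 (hP1 ▸ map_twoStep φ hs :
    φ s ∈ Subgroup.zpowers s ⊔ gam Q 2)
  obtain ⟨l, hl⟩ := mem_powers_iff_mem_zpowers.2 hz
  change s ^ l = z at hl
  subst hl
  let c : ℕ → Q := fun i => Nat.rec (motive := fun _ => Q) s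
    (fun m r => if m = 0 then s else ⁅r, e⁆) i
  have hc1 : c 1 = s := rfl
  have hcs : ∀ i, 1 ≤ i → c (i + 1) = ⁅c i, e⁆ := fun i hi => if_neg (by omega)
  have hcm : ∀ i, 1 ≤ i → c i ∈ gam Q i := by
    intro i hi
    induction i, hi using Nat.le_induction with
    | base => rw [gam_one]; exact Subgroup.mem_top _
    | succ i hi ih => rw [hcs i hi]; exact comm_mem_gam_succ hi ih e
  have hcn : ∀ i, 2 ≤ i → i + 1 ≤ n → c i ∉ gam Q (i + 1) := by
    intro i hi
    induction i, hi using Nat.le_induction with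
    | base => intro _; show c (1 + 1) ∉ _; rw [hcs 1 le_rfl, hc1]; exact h.comm_notMem_one hgood hs hs'
    | succ i hi ih =>
      intro hin
      rw [hcs i (by omega)]
      exact h.comm_notMem hgood hi (by omega) (hcm i (by omega)) (ih (by omega))
  have hcv : ∀ i, 1 ≤ i → i + 2 ≤ n → ⁅c i, v⁆ ∈ gam Q (i + 2) := by
    intro i hi hin
    rcases eq_or_lt_of_le hi with rfl | hi2
    · rw [hc1]
      rw [hP1, Subgroup.mem_sup_of_normal_right] at hv
      obtain ⟨z, hz, g, hg, rfl⟩ := hv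
      obtain ⟨j, rfl⟩ := Subgroup.mem_zpowers_iff.1 hz
      rw [show ⁅s, s ^ j * g⁆ = s ^ j * ⁅s, g⁆ * (s ^ j)⁻¹ by
        simp only [commutatorElement_def]; group]
      refine (gam_normal (G := Q) 3).conj_mem _ ?_ _
      rw [← commutatorElement_inv]
      exact inv_mem (comm_mem_gam_succ (by norm_num) hg s)
    · rw [← commutatorElement_inv]
      exact inv_mem (mem_twoStep.1 ((twoStep_eq h hi2 hin).ge hv) _ (hcm i hi))
  have key : ∀ i, 1 ≤ i → i + 1 ≤ n → (c i ^ (l * k ^ (i - 1)))⁻¹ * φ (c i) ∈ gam Q (i + 1) := by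
    intro i hi
    induction i, hi using Nat.le_induction with
    | base =>
      intro _
      rw [hc1, ← hφs, Nat.sub_self, pow_zero, mul_one, inv_mul_cancel_left]
      exact hw
    | succ i hi ih =>
      intro hin
      have hg := ih (by omega)
      set g := (c i ^ (l * k ^ (i - 1)))⁻¹ * φ (c i) with hgdef
      have hφc : φ (c i) = c i ^ (l * k ^ (i - 1)) * g := by rw [hgdef, mul_inv_cancel_left]
      let π := QuotientGroup.mk' (gam Q (i + 1 + 1))
      have hcen : ∀ a ∈ gam Q (i + 1), ∀ y, Commute (π a) y := fun a ha y =>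
        mk_central (by omega) ha y
      have hπc : ∀ a : Q ⧸ gam Q (i + 1 + 1), Commute ⁅π (c i), π e⁆ a := fun a => by
        rw [← map_commutatorElement]; exact hcen _ (comm_mem_gam_succ hi (hcm i hi) e) a
      rw [← QuotientGroup.eq_one_iff]
      show π _ = 1
      rw [map_mul, map_inv, inv_mul_eq_one, map_pow, hcs i hi, map_commutatorElement,
        map_commutatorElement φ, hφc, hφe, map_commutatorElement]
      simp only [map_mul, map_pow]
      have hA : Commute (π (c i) ^ (l * k ^ (i - 1))) (π v) := by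
        refine Commute.pow_left ?_ _
        rw [← commutatorElement_eq_one_iff_commute, ← map_commutatorElement]
        exact (QuotientGroup.eq_one_iff _).2 (hcv i hi (by omega))
      rw [show ⁅π (c i) ^ (l * k ^ (i - 1)) * π g, π e ^ k * π v⁆ =
          ⁅π (c i) ^ (l * k ^ (i - 1)), π e ^ k * π v⁆ by
        have hgz : ⁅π g, π e ^ k * π v⁆ = 1 :=
          commutatorElement_eq_one_iff_commute.2 (hcen g hg _)
        rw [show ⁅π (c i) ^ (l * k ^ (i - 1)) * π g, π e ^ k * π v⁆ =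
            π (c i) ^ (l * k ^ (i - 1)) * ⁅π g, π e ^ k * π v⁆ * (π (c i) ^ (l * k ^ (i - 1)))⁻¹ *
              ⁅π (c i) ^ (l * k ^ (i - 1)), π e ^ k * π v⁆ by
          simp only [commutatorElement_def]; group, hgz, mul_one, mul_inv_cancel, one_mul]]
      rw [show ⁅π (c i) ^ (l * k ^ (i - 1)), π e ^ k * π v⁆ =
          ⁅π (c i) ^ (l * k ^ (i - 1)), π e ^ k⁆ by
        rw [show ⁅π (c i) ^ (l * k ^ (i - 1)), π e ^ k * π v⁆ =
            ⁅π (c i) ^ (l * k ^ (i - 1)), π e ^ k⁆ *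
              (π e ^ k * ⁅π (c i) ^ (l * k ^ (i - 1)), π v⁆ * (π e ^ k)⁻¹) by
          simp only [commutatorElement_def]; group,
          commutatorElement_eq_one_iff_commute.2 hA, mul_one, mul_inv_cancel, mul_one]]
      have h1 : ∀ b : ℕ, ⁅π (c i), π e ^ b⁆ = ⁅π (c i), π e⁆ ^ b :=
        fun b => CfsgLib.PGroup.commutatorElement_pow_right (hπc _) b
      have h2 : ⁅π (c i) ^ (l * k ^ (i - 1)), π e ^ k⁆ =
          ⁅π (c i), π e ^ k⁆ ^ (l * k ^ (i - 1)) :=
        CfsgLib.PGroup.commutatorElement_pow_left (by rw [h1]; exact (hπc _).pow_left k) _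
      rw [h2, h1, ← pow_mul]
      congr 1
      rw [show i + 1 - 1 = i - 1 + 1 by omega, pow_succ]
      ring
  have hlast := key (n - 1) (by omega) (by omega)
  rw [h.gam_eq_bot (show n ≤ n - 1 + 1 by omega), Subgroup.mem_bot, inv_mul_eq_one] at hlast
  have hcc : c (n - 1) ∈ gam Q (n - 1) := hcm _ (by omega)
  have hne : c (n - 1) ≠ 1 := fun h1 => hcn (n - 1) (by omega) (by omega) (h1 ▸ one_mem _)
  have hcard : Nat.card (gam Q (n - 1)) = 3 := by
    rw [h.card_gam _ (by omega) (by omega), show n - (n - 1) = 1 by omega, pow_one]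
  have hgen : c (n - 1) ∈ Subgroup.zpowers x0 := by
    have : Subgroup.zpowers x0 = gam Q (n - 1) := by
      refine Subgroup.eq_of_le_of_card_ge (Subgroup.zpowers_le.2 hx0) ?_
      rw [hcard, Nat.card_zpowers]
      have h3 : orderOf x0 ∣ 3 := hcard ▸ Subgroup.orderOf_dvd_natCard _ hx0
      rcases (Nat.dvd_prime Fact.out).1 h3 with h' | h'
      · exact absurd (orderOf_eq_one_iff.1 h') hx1
      · exact h'.ge
    exact this ▸ hcc
  obtain ⟨j, hj⟩ := Subgroup.mem_zpowers_iff.1 hgen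
  rw [show φ (c (n - 1)) = c (n - 1) by rw [← hj, map_zpow, hfix]] at hlast
  have hord : orderOf (c (n - 1)) = 3 := by
    have h3 : orderOf (c (n - 1)) ∣ 3 := hcard ▸ Subgroup.orderOf_dvd_natCard _ hcc
    rcases (Nat.dvd_prime Fact.out).1 h3 with h' | h'
    · exact absurd (orderOf_eq_one_iff.1 h') hne
    · exact h'
  have hmod : l * k ^ (n - 1 - 1) ≡ 1 [MOD 3] := by
    have := pow_eq_pow_iff_modEq.1 (hlast.trans (pow_one _).symm)
    rwa [hord] at this
  obtain ⟨t, rfl⟩ := hn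
  have hk2 : k ^ (t + t - 1 - 1) % 3 = 1 := by
    rw [show t + t - 1 - 1 = 2 * (t - 1) by omega, pow_mul, Nat.pow_mod]
    rcases (show k = 1 ∨ k = 2 by omega) with rfl | rfl <;> simp
  have hl : l % 3 = 1 := by
    rw [Nat.ModEq, Nat.mul_mod, hk2] at hmod
    omega
  rw [← hφs, show s ^ l = (s ^ 3) ^ (l / 3) * s by
    rw [← pow_mul, ← pow_succ, show 3 * (l / 3) + 1 = l by omega]]
  have h5 := (gam_normal (G := Q) 2).conj_mem _ hw s
  have := mul_mem (pow_mem (h.pow_mem_gam_two s) (l / 3)) h5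
  rwa [show (s ^ 3) ^ (l / 3) * (s * w * s⁻¹) = (s ^ 3) ^ (l / 3) * s * w * s⁻¹ by group] at this

end CfsgLib.IsolatedRankTwo
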