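import Cfsg.Agent.IsolatedRankTwo.Basic
import Cfsg.Agent.IsolatedRankTwo.MaxClassThree
import Cfsg.Agent.Transfer.GruenFirst
import Cfsg.Agent.LocalP.RankOne

/-!
A perfect group with an isolated element of order `3` and a Sylow `3`-subgroup of maximal class and
rank at most two: the order of the Sylow subgroup is an odd power of `3`.
-/

set_option autoImplicit false

open scoped commutatorElement

namespace CfsgLib.IsolatedRankTwo

open CfsgLib.PGroup CfsgLib.PGroup.MaxClass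

section Abstract

variable {H : Type*} [Group H]

/-- The double of a twisted transvection product inverts both basis elements. -/
theorem exists_inverting {e a d q : H} (hea : Commute e a) (hde : d * e * d⁻¹ = a * e)
    (hda : d * a * d⁻¹ = a) (hqe : q * e * q⁻¹ = e) (hqa : q * a * q⁻¹ = e⁻¹ * a) :
    ((d * q * d) * (d * q * d)) * e * ((d * q * d) * (d * q * d))⁻¹ = e⁻¹ ∧
      ((d * q * d) * (d * q * d)) * a * ((d * q * d) * (d * q * d))⁻¹ = a⁻¹ := by
  have h1 : d * q * d * e * (d * q * d)⁻¹ = a := by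
    rw [show d * q * d * e * (d * q * d)⁻¹ = d * (q * (d * e * d⁻¹) * q⁻¹) * d⁻¹ by group, hde,
      show q * (a * e) * q⁻¹ = (q * a * q⁻¹) * (q * e * q⁻¹) by group, hqa, hqe,
      show e⁻¹ * a * e = a by rw [mul_assoc, ← hea.eq, inv_mul_cancel_left], hda]
  have h2 : d * q * d * a * (d * q * d)⁻¹ = e⁻¹ := by
    rw [show d * q * d * a * (d * q * d)⁻¹ = d * (q * (d * a * d⁻¹) * q⁻¹) * d⁻¹ by group, hda, hqa,
      show d * (e⁻¹ * a) * d⁻¹ = (d * e * d⁻¹)⁻¹ * (d * a * d⁻¹) by group, hde, hda, mul_inv_rev,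
      inv_mul_cancel_right]
  constructor
  · rw [show (d * q * d) * (d * q * d) * e * ((d * q * d) * (d * q * d))⁻¹ =
      (d * q * d) * ((d * q * d) * e * (d * q * d)⁻¹) * (d * q * d)⁻¹ by group, h1, h2]
  · rw [show (d * q * d) * (d * q * d) * a * ((d * q * d) * (d * q * d))⁻¹ =
      (d * q * d) * ((d * q * d) * a * (d * q * d)⁻¹) * (d * q * d)⁻¹ by group, h2,
      show (d * q * d) * e⁻¹ * (d * q * d)⁻¹ = ((d * q * d) * e * (d * q * d)⁻¹)⁻¹ by group, h1]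

end Abstract

variable {K : Type*} [Group K] [Finite K] [Fact (Nat.Prime 3)] {n : ℕ}

/-- The standing hypotheses. -/
structure Setup (K : Type*) [Group K] [Finite K] [Fact (Nat.Prime 3)] (n : ℕ) where
  perf : commutator K = ⊤
  rank : Cfsg.PRankLE 3 2 K
  P : Sylow 3 K
  maxCl : IsMaxCl 3 ↥(P : Subgroup K) n
  even : Even n
  x : K
  iso : Cfsg.IsIsolated x
  memP : x ∈ (P : Subgroup K)
  pow3 : x ^ 3 = 1
  ne1 : x ≠ 1

namespace Setup

variable (S : Setup K n)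

/-- The terms of the series of the Sylow subgroup, in the group. -/
def Γ (j : ℕ) : Subgroup K := (gam ↥(S.P : Subgroup K) j).map (S.P : Subgroup K).subtype

/-- The subgroups `⟨e⟩γ_j`, in the group. -/
def E (e : ↥(S.P : Subgroup K)) (j : ℕ) : Subgroup K :=
  (lineGroup ↥(S.P : Subgroup K) e j).map (S.P : Subgroup K).subtype

theorem mem_Γ {j : ℕ} {u : ↥(S.P : Subgroup K)} : (u : K) ∈ S.Γ j ↔ u ∈ gam _ j :=
  Subgroup.mem_map_iff_mem (Subgroup.subtype_injective _)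

theorem mem_E {e : ↥(S.P : Subgroup K)} {j : ℕ} {u : ↥(S.P : Subgroup K)} :
    (u : K) ∈ S.E e j ↔ u ∈ lineGroup _ e j :=
  Subgroup.mem_map_iff_mem (Subgroup.subtype_injective _)

theorem E_le (e : ↥(S.P : Subgroup K)) (j : ℕ) : S.E e j ≤ (S.P : Subgroup K) :=
  Subgroup.map_subtype_le _

theorem Γ_le_E (e : ↥(S.P : Subgroup K)) (j : ℕ) : S.Γ j ≤ S.E e j :=
  Subgroup.map_mono (gam_le_lineGroup e j)

theorem P_le_normalizer_Γ (j : ℕ) : (S.P : Subgroup K) ≤ Subgroup.normalizer (S.Γ j : Set K) := by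
  intro u hu
  refine Subgroup.mem_normalizer_fintype fun v hv => ?_
  obtain ⟨v, hv, rfl⟩ := hv
  exact ⟨⟨u, hu⟩ * v * ⟨u, hu⟩⁻¹, (gam_normal (G := ↥(S.P : Subgroup K)) j).conj_mem _ hv _, rfl⟩

/-- The isolated element, in the Sylow subgroup. -/
def x0 : ↥(S.P : Subgroup K) := ⟨S.x, S.memP⟩

theorem x0_ne_one : S.x0 ≠ 1 := fun h => S.ne1 (congrArg Subtype.val h)

theorem rankP : Cfsg.PRankLE 3 2 ↥(S.P : Subgroup K) :=
  CfsgLib.LocalP.pRankLE_subgroup S.rank _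

theorem x0_mem_gam : S.x0 ∈ gam ↥(S.P : Subgroup K) (n - 1) := by
  have h4 := S.maxCl.four_le
  obtain ⟨e, he⟩ := S.maxCl.exists_good
  have h2 : S.x0 ∈ gam ↥(S.P : Subgroup K) 2 := by
    rw [gam_succ le_rfl, gam_one, ← commutator_def]
    exact mem_commutator_sylow S.perf S.P S.iso S.memP S.pow3
  refine S.maxCl.mem_gam_of_comm he le_rfl h2 ?_
  rw [commutatorElement_eq_one_iff_mul_comm.2
    (Subtype.ext (CfsgLib.LocalP.isolated_commute_of_mem S.iso S.P.2 S.memP _ e.2))]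
  exact one_mem _

theorem zpowers_x0 : Subgroup.zpowers S.x0 = gam ↥(S.P : Subgroup K) (n - 1) := by
  have h4 := S.maxCl.four_le
  refine Subgroup.eq_of_le_of_card_ge (Subgroup.zpowers_le.2 S.x0_mem_gam) ?_
  rw [S.maxCl.card_gam _ (by omega) (by omega), Nat.card_zpowers,
    show n - (n - 1) = 1 by omega, pow_one, ← Subgroup.orderOf_coe]
  exact (orderOf_eq_prime S.pow3 S.ne1).ge

theorem zpowers_x : Subgroup.zpowers S.x = S.Γ (n - 1) := by
  rw [Γ, ← zpowers_x0, MonoidHom.map_zpowers]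
  rfl

theorem commute_x {u : K} (hu : u ∈ (S.P : Subgroup K)) : Commute S.x u :=
  CfsgLib.LocalP.isolated_commute_of_mem S.iso S.P.2 S.memP u hu

/-- A `3`-group through `x` can be moved into the Sylow subgroup fixing `x`. -/
theorem exists_conj_into {T : Subgroup K} (hT : IsPGroup 3 T) (hxT : S.x ∈ T) :
    ∃ c : K, c * S.x * c⁻¹ = S.x ∧ T.map (MulAut.conj c).toMonoidHom ≤ (S.P : Subgroup K) := by
  obtain ⟨R, hR⟩ := hT.exists_le_sylow
  obtain ⟨c, hc⟩ := MulAction.exists_smul_eq K R S.P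
  have hle : T.map (MulAut.conj c).toMonoidHom ≤ (S.P : Subgroup K) := by
    rintro _ ⟨t, ht, rfl⟩
    rw [← hc]
    exact ⟨t, hR ht, rfl⟩
  exact ⟨c, CfsgLib.LocalP.isolated_eq_of_mem S.iso S.P.2 S.memP (hle ⟨S.x, hxT, rfl⟩), hle⟩

/-- Good elements have cubes in the centre. -/
theorem cube_mem {e : ↥(S.P : Subgroup K)} (he : e ∉ twoStep _ 2) :
    (e : K) ^ 3 ∈ Subgroup.zpowers S.x := by
  rw [S.zpowers_x, ← SubmonoidClass.coe_pow]
  exact S.mem_Γ.2 (S.maxCl.pow_mem_gam_last (good_of_notMem S.maxCl he))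

theorem mul_notMem {e a : ↥(S.P : Subgroup K)} (he : e ∉ twoStep _ 2) (ha : a ∈ gam _ 2) :
    e * a ∉ twoStep _ 2 := fun h => he (by
  have := mul_mem h (inv_mem (gam_two_le_twoStep (by norm_num) ha))
  rwa [mul_inv_cancel_right] at this)

/-- Conjugates fixing `x` cannot push `e` and `e a` into `P₁` together. -/
theorem exists_good_conj {e a : ↥(S.P : Subgroup K)} (he : e ∉ twoStep _ 2) (ha : a ∈ gam _ 2)
    (hea : ⁅e, a⁆ ≠ 1) {c : K} (hc : c * S.x * c⁻¹ = S.x)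
    (h1 : c * (e : K) * c⁻¹ ∈ (S.P : Subgroup K))
    (h2 : c * ((e * a : ↥(S.P : Subgroup K)) : K) * c⁻¹ ∈ (S.P : Subgroup K)) :
    (⟨_, h1⟩ : ↥(S.P : Subgroup K)) ∉ twoStep _ 2 ∨
      (⟨_, h2⟩ : ↥(S.P : Subgroup K)) ∉ twoStep _ 2 := by
  by_contra hcon
  push Not at hcon
  have hcube : ∀ (f : ↥(S.P : Subgroup K)) (hf : c * (f : K) * c⁻¹ ∈ (S.P : Subgroup K)),
      f ∉ twoStep _ 2 → (⟨_, hf⟩ : ↥(S.P : Subgroup K)) ^ 3 ∈ gam _ (n - 1) := by
    intro f hf hf'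
    obtain ⟨i, hi⟩ := Subgroup.mem_zpowers_iff.1 (S.cube_mem hf')
    rw [← S.zpowers_x0]
    refine Subgroup.mem_zpowers_iff.2 ⟨i, Subtype.ext ?_⟩
    rw [SubgroupClass.coe_zpow, SubmonoidClass.coe_pow]
    show S.x ^ i = (c * (f : K) * c⁻¹) ^ 3
    rw [conj_pow, ← hi, ← conj_zpow, hc]
  have hcom := commute_of_cubes S.maxCl S.even hcon.1 hcon.2 (hcube e h1 he)
    (hcube _ h2 (S.mul_notMem he ha))
  apply hea
  rw [commutatorElement_eq_one_iff_commute]
  have h3 : Commute e (e * a) := Subtype.ext (by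
    refine (MulAut.conj c).injective ?_
    show MulAut.conj c ((e : K) * ((e * a : ↥(S.P : Subgroup K)) : K)) =
      MulAut.conj c (((e * a : ↥(S.P : Subgroup K)) : K) * (e : K))
    rw [map_mul, map_mul]
    exact congrArg Subtype.val hcom.eq)
  have h4 := ((Commute.refl e).inv_right).mul_right h3
  rwa [inv_mul_cancel_left] at h4

theorem E_le_normalizer (e : ↥(S.P : Subgroup K)) {j : ℕ} (hj : 2 ≤ j) :
    S.E e (j - 1) ≤ Subgroup.normalizer (S.E e j : Set K) := by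
  have h := lineGroup_le_normalizer e (show 1 ≤ j - 1 by omega)
  rw [show j - 1 + 1 = j by omega] at h
  exact (Subgroup.map_mono h).trans (Subgroup.le_normalizer_map _)

theorem card_E {e : ↥(S.P : Subgroup K)} (he : e ∉ twoStep _ 2) {j : ℕ} (hj : 1 ≤ j)
    (hjn : j + 1 ≤ n) : Nat.card (S.E e j) = 3 ^ (n - j + 1) := by
  rw [E, Subgroup.card_map_of_injective (Subgroup.subtype_injective _),
    S.maxCl.card_lineGroup (good_of_notMem S.maxCl he) hj hjn]

/-- A `3`-group normalising `⟨e⟩γ_j` has order at most `3` times as large. -/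
theorem card_le_of_normalizes {e : ↥(S.P : Subgroup K)} (he : e ∉ twoStep _ 2) {j : ℕ} (hj : 2 ≤ j)
    (hjn : j + 2 ≤ n) {T : Subgroup K} (hTN : T ≤ Subgroup.normalizer (S.E e j : Set K))
    (hT : IsPGroup 3 T) : Nat.card T ≤ 3 ^ (n - j + 2) := by
  have h4 := S.maxCl.four_le
  rcases eq_or_lt_of_le hj with rfl | hj3
  · obtain ⟨R, hR⟩ := hT.exists_le_sylow
    refine (Subgroup.card_le_of_le hR).trans (le_of_eq ?_)
    rw [R.card_eq_multiplicity, ← S.P.card_eq_multiplicity, S.maxCl.card_eq]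
    congr 1; omega
  have hEp : IsPGroup 3 (S.E e j) := S.P.2.to_le (S.E_le e j)
  have hsup : IsPGroup 3 (S.E e j ⊔ T : Subgroup K) := hEp.to_sup_of_normal_left' hT hTN
  have hxE : S.x ∈ S.E e j := S.Γ_le_E e j (Subgroup.map_mono (gam_anti (by omega))
    (S.zpowers_x ▸ Subgroup.mem_zpowers S.x))
  obtain ⟨c, hc, hle⟩ := S.exists_conj_into hsup (Subgroup.mem_sup_left hxE)
  obtain ⟨a, ha, ha'⟩ := S.maxCl.exists_notMem_succ (i := n - 2) (by omega) (by omega)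
  have hea : ⁅e, a⁆ ≠ 1 := by
    intro h
    refine S.maxCl.comm_notMem (good_of_notMem S.maxCl he) (show 2 ≤ n - 2 by omega) (by omega)
      ha ha' ?_
    rw [← commutatorElement_inv, h, inv_one]
    exact one_mem _
  have haE : a ∈ lineGroup _ e j := gam_le_lineGroup e j (gam_anti (by omega) ha)
  have h1 : c * (e : K) * c⁻¹ ∈ (S.P : Subgroup K) :=
    hle ⟨_, Subgroup.mem_sup_left (S.mem_E.2 (mem_lineGroup_self e j)), rfl⟩
  have h2 : c * ((e * a : ↥(S.P : Subgroup K)) : K) * c⁻¹ ∈ (S.P : Subgroup K) :=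
    hle ⟨_, Subgroup.mem_sup_left (S.mem_E.2 (mul_mem (mem_lineGroup_self e j) haE)), rfl⟩
  let W : Subgroup ↥(S.P : Subgroup K) :=
    ((S.E e j).map (MulAut.conj c).toMonoidHom).subgroupOf (S.P : Subgroup K)
  have hWcard : Nat.card W = 3 ^ (n - j + 1) := by
    rw [Nat.card_congr (Subgroup.subgroupOfEquivOfLe
      ((Subgroup.map_mono le_sup_left).trans hle)).toEquiv,
      Subgroup.card_map_of_injective (MulEquiv.injective _), S.card_E he (by omega) (by omega)]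
  obtain ⟨t, ht, htW⟩ : ∃ t, t ∉ twoStep ↥(S.P : Subgroup K) 2 ∧ t ∈ W := by
    rcases S.exists_good_conj he (gam_anti (by omega) ha) hea hc h1 h2 with h | h
    · exact ⟨_, h, ⟨_, S.mem_E.2 (mem_lineGroup_self e j), rfl⟩⟩
    · exact ⟨_, h, ⟨_, S.mem_E.2 (mul_mem (mem_lineGroup_self e j) haE), rfl⟩⟩
  have hWeq := eq_lineGroup S.maxCl ht htW hWcard (by omega) (by omega)
  rw [show n - (n - j + 1) + 1 = j by omega] at hWeq
  have hTsub : (T.map (MulAut.conj c).toMonoidHom).subgroupOf (S.P : Subgroup K) ≤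
      lineGroup _ t (j - 1) := by
    rintro u ⟨v, hv, hvu⟩
    refine mem_lineGroup_of_comm S.maxCl ht (by omega) (by omega) ?_
    have hmem : ⁅u, t⁆ ∈ W := by
      obtain ⟨s, hs, hst⟩ := htW
      refine ⟨⁅v, s⁆, ?_, ?_⟩
      · exact mul_mem ((Subgroup.mem_normalizer_iff.1 (hTN hv) s).1 hs) (inv_mem hs)
      · rw [map_commutatorElement, hvu, hst, ← map_commutatorElement]
    rw [hWeq] at hmem
    exact lineGroup_inf_twoStep S.maxCl ht (by omega) (by omega) hmem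
      (gam_two_le_twoStep (by norm_num)
        (comm_mem_gam_succ le_rfl (gam_one (G := ↥(S.P : Subgroup K)) ▸ Subgroup.mem_top u) t))
  have := Subgroup.card_le_of_le hTsub
  rwa [Nat.card_congr (Subgroup.subgroupOfEquivOfLe ((Subgroup.map_mono le_sup_right).trans
    hle)).toEquiv, Subgroup.card_map_of_injective (MulEquiv.injective _),
    S.maxCl.card_lineGroup (good_of_notMem S.maxCl ht) (by omega) (by omega),
    show n - (j - 1) + 1 = n - j + 2 by omega] at this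

theorem comm_mem_zpowers {e : ↥(S.P : Subgroup K)} (he : e ∉ twoStep _ 2) {u v : K}
    (hu : u ∈ S.E e (n - 2)) (hv : v ∈ S.E e (n - 2)) : ⁅u, v⁆ ∈ Subgroup.zpowers S.x := by
  have h4 := S.maxCl.four_le
  obtain ⟨u, hu', rfl⟩ := hu
  obtain ⟨v, hv', rfl⟩ := hv
  rw [S.zpowers_x, ← map_commutatorElement]
  refine Subgroup.mem_map_of_mem _ ?_
  rw [← show n - 2 + 1 = n - 1 by omega, ← S.maxCl.commutator_lineGroup
    (good_of_notMem S.maxCl he) (by omega) (by omega)]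
  exact Subgroup.commutator_mem_commutator hu' hv'

/-- The elements fixing `x` and fixing `e` modulo `x`. -/
def D (e : K) : Subgroup K where
  carrier := {g | g * S.x * g⁻¹ = S.x ∧ ⁅g, e⁆ ∈ Subgroup.zpowers S.x}
  one_mem' := ⟨by simp, by simp⟩
  mul_mem' := by
    rintro g h ⟨hg, hg'⟩ ⟨hh, hh'⟩
    refine ⟨by rw [show g * h * S.x * (g * h)⁻¹ = g * (h * S.x * h⁻¹) * g⁻¹ by group, hh, hg], ?_⟩
    rw [show ⁅g * h, e⁆ = g * ⁅h, e⁆ * g⁻¹ * ⁅g, e⁆ by simp only [commutatorElement_def]; group]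
    obtain ⟨i, hi⟩ := Subgroup.mem_zpowers_iff.1 hh'
    refine mul_mem ?_ hg'
    rw [← hi, ← conj_zpow, hg]
    exact zpow_mem (Subgroup.mem_zpowers _) i
  inv_mem' := by
    rintro g ⟨hg, hg'⟩
    have hg1 : g⁻¹ * S.x * g⁻¹⁻¹ = S.x := by
      conv_lhs => rw [← hg]
      group
    refine ⟨hg1, ?_⟩
    rw [show ⁅g⁻¹, e⁆ = g⁻¹ * ⁅g, e⁆⁻¹ * g⁻¹⁻¹ by simp only [commutatorElement_def]; group]
    obtain ⟨i, hi⟩ := Subgroup.mem_zpowers_iff.1 (inv_mem hg')
    rw [← hi, ← conj_zpow, hg1]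
    exact zpow_mem (Subgroup.mem_zpowers _) i

/-- If `e` is fused into `γ₂` then an element fixing `e` modulo `x` moves `γ_{n-2}`. -/
theorem exists_moving {e : ↥(S.P : Subgroup K)} (he : e ∉ twoStep _ 2) {g : K}
    (hgx : g * S.x * g⁻¹ = S.x) {d : ↥(S.P : Subgroup K)} (hd : d ∈ gam _ 2)
    (hgd : g * (e : K) * g⁻¹ = d) {a : ↥(S.P : Subgroup K)} (ha : a ∈ gam _ (n - 2))
    (ha' : a ∉ gam _ (n - 1)) :
    ∃ q : K, q * S.x * q⁻¹ = S.x ∧ ⁅q, (e : K)⁆ ∈ Subgroup.zpowers S.x ∧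
      q ∈ Subgroup.normalizer (S.E e (n - 2) : Set K) ∧ (∃ k, q ^ 3 ^ k = 1) ∧
      ⁅q, (a : K)⁆ ∉ Subgroup.zpowers S.x := by
  have h4 := S.maxCl.four_le
  set F := S.E e (n - 2)
  have hF : F ≤ S.D e := fun u hu =>
    ⟨by rw [(S.commute_x (S.E_le e _ hu)).symm.eq, mul_inv_cancel_right],
      S.comm_mem_zpowers he hu (S.mem_E.2 (mem_lineGroup_self e _))⟩
  -- a large `3`-subgroup of `D`
  have hd3 : d ^ 3 ∈ gam _ (n - 1) := by
    obtain ⟨i, hi⟩ := Subgroup.mem_zpowers_iff.1 (S.cube_mem he)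
    rw [← S.zpowers_x0]
    refine Subgroup.mem_zpowers_iff.2 ⟨i, Subtype.ext ?_⟩
    rw [SubgroupClass.coe_zpow, SubmonoidClass.coe_pow, ← hgd, conj_pow, ← hi, ← conj_zpow]
    exact congrArg (· ^ i) hgx.symm
  have hd' := mem_gam_of_pow S.maxCl hd hd3
  obtain ⟨B, hB, hBc⟩ : ∃ B : Subgroup ↥(S.P : Subgroup K),
      (∀ u ∈ B, ⁅u, d⁆ ∈ gam ↥(S.P : Subgroup K) (n - 1)) ∧ 81 ≤ Nat.card B := by
    obtain ⟨t, ht⟩ := S.even
    by_cases ht2 : t = 2
    · refine ⟨⊤, fun u _ => ?_, ?_⟩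
      · rw [← commutatorElement_inv, show n - 1 = 2 + 1 by omega]
        exact inv_mem (comm_mem_gam_succ (by norm_num) hd u)
      · rw [Subgroup.card_top, S.maxCl.card_eq, show n = 4 by omega]; norm_num
    · refine ⟨twoStep _ 2, fun u hu => ?_, ?_⟩
      · rw [show n - 1 = n - 3 + 2 by omega]
        exact mem_twoStep.1 ((twoStep_eq S.maxCl (show 2 ≤ n - 3 by omega) (by omega)).ge hu) d hd'
      · have h1 := (twoStep ↥(S.P : Subgroup K) 2).card_mul_index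
        have h2 : 3 ^ n = 3 ^ (n - 1) * 3 := by rw [← pow_succ]; congr 1; omega
        rw [S.maxCl.index_twoStep le_rfl (by omega), S.maxCl.card_eq, h2] at h1
        rw [Nat.eq_of_mul_eq_mul_right (by norm_num) h1]
        calc 81 = 3 ^ 4 := by norm_num
          _ ≤ _ := Nat.pow_le_pow_right (by norm_num) (by omega)
  let B' : Subgroup K := (B.map (S.P : Subgroup K).subtype).map (MulAut.conj g⁻¹).toMonoidHom
  have hB'p : IsPGroup 3 B' := (S.P.2.to_le (Subgroup.map_subtype_le _)).map _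
  have hB'c : 81 ≤ Nat.card B' := by
    rwa [Subgroup.card_map_of_injective (MulEquiv.injective _),
      Subgroup.card_map_of_injective (Subgroup.subtype_injective _)]
  have hB'D : B' ≤ S.D e := by
    rintro _ ⟨_, ⟨u, hu, rfl⟩, rfl⟩
    have hgx' : g⁻¹ * S.x * g⁻¹⁻¹ = S.x := by
      conv_lhs => rw [← hgx]
      group
    refine ⟨?_, ?_⟩
    · show g⁻¹ * u * g⁻¹⁻¹ * S.x * (g⁻¹ * u * g⁻¹⁻¹)⁻¹ = S.x
      rw [show g⁻¹ * (u : K) * g⁻¹⁻¹ * S.x * (g⁻¹ * u * g⁻¹⁻¹)⁻¹ =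
        g⁻¹ * (u * (g * S.x * g⁻¹) * (u : K)⁻¹) * g⁻¹⁻¹ by group, hgx,
        (S.commute_x u.2).symm.eq, mul_inv_cancel_right, hgx']
    · have h1 : ⁅(u : K), (d : K)⁆ ∈ Subgroup.zpowers S.x :=
        S.zpowers_x ▸ S.mem_Γ.2 (hB u hu)
      obtain ⟨i, hi⟩ := Subgroup.mem_zpowers_iff.1 h1
      show ⁅g⁻¹ * u * g⁻¹⁻¹, (e : K)⁆ ∈ _
      rw [show ⁅g⁻¹ * (u : K) * g⁻¹⁻¹, (e : K)⁆ = g⁻¹ * ⁅(u : K), g * e * g⁻¹⁆ * g⁻¹⁻¹ by
        simp only [commutatorElement_def]; group, hgd, ← hi, ← conj_zpow, hgx']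
      exact zpow_mem (Subgroup.mem_zpowers _) i
  -- a Sylow subgroup of `D` over `F`
  obtain ⟨R, hR⟩ := ((S.P.2.to_le (S.E_le e (n - 2))).of_equiv
    (Subgroup.subgroupOfEquivOfLe hF).symm).exists_le_sylow
  obtain ⟨R₁, hR₁⟩ := (hB'p.of_equiv (Subgroup.subgroupOfEquivOfLe hB'D).symm).exists_le_sylow
  let R' : Subgroup K := (R : Subgroup ↥(S.D e)).map (S.D e).subtype
  have hR'p : IsPGroup 3 R' := R.2.map _
  have hFR : F ≤ R' := fun u hu => ⟨⟨u, hF hu⟩, hR hu, rfl⟩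
  have hFc : Nat.card F = 27 := by
    rw [S.card_E he (by omega) (by omega), show n - (n - 2) + 1 = 3 by omega]; norm_num
  have hR'c : 81 ≤ Nat.card R' := by
    rw [Subgroup.card_map_of_injective (Subgroup.subtype_injective _), R.card_eq_multiplicity,
      ← R₁.card_eq_multiplicity]
    refine le_trans ?_ (Subgroup.card_le_of_le hR₁)
    rwa [Nat.card_congr (Subgroup.subgroupOfEquivOfLe hB'D).toEquiv]
  have hlt := card_lt_card_inf_normalizer hR'p hFR (by omega)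
  set T := R' ⊓ Subgroup.normalizer (F : Set K)
  have hTp : IsPGroup 3 T := hR'p.to_le inf_le_left
  have hTc : 81 ≤ Nat.card T := by
    obtain ⟨i, hi⟩ := IsPGroup.iff_card.1 hTp
    rw [hi, hFc, show (27 : ℕ) = 3 ^ 3 by norm_num, Nat.pow_lt_pow_iff_right (by norm_num)] at hlt
    rw [hi]
    calc 81 = 3 ^ 4 := by norm_num
      _ ≤ _ := Nat.pow_le_pow_right (by norm_num) hlt
  have hTD : T ≤ S.D e := inf_le_left.trans (Subgroup.map_subtype_le _)
  by_contra hcon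
  push Not at hcon
  have hall : ∀ u ∈ T, ⁅u, (a : K)⁆ ∈ Subgroup.zpowers S.x := fun u hu => by
    obtain ⟨k, hk⟩ := hTp ⟨u, hu⟩
    exact hcon u (hTD hu).1 (hTD hu).2 hu.2 ⟨k, by simpa [Subtype.ext_iff] using hk⟩
  have hxT : S.x ∈ T := by
    have : S.x ∈ F := S.Γ_le_E e _ (Subgroup.map_mono (gam_anti (by omega))
      (S.zpowers_x ▸ Subgroup.mem_zpowers S.x))
    exact ⟨hFR this, Subgroup.le_normalizer this⟩
  obtain ⟨c, hc, hle⟩ := S.exists_conj_into hTp hxT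
  have hea : ⁅e, a⁆ ≠ 1 := by
    intro h
    refine S.maxCl.comm_notMem (good_of_notMem S.maxCl he) (show 2 ≤ n - 2 by omega) (by omega)
      ha (by rwa [show n - 2 + 1 = n - 1 by omega]) ?_
    rw [← commutatorElement_inv, h, inv_one]
    exact one_mem _
  have hmemT : ∀ u : ↥(S.P : Subgroup K), u ∈ lineGroup _ e (n - 2) → (u : K) ∈ T := fun u hu =>
    ⟨hFR (S.mem_E.2 hu), Subgroup.le_normalizer (S.mem_E.2 hu)⟩
  have h1 : c * (e : K) * c⁻¹ ∈ (S.P : Subgroup K) :=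
    hle ⟨_, hmemT e (mem_lineGroup_self e _), rfl⟩
  have h2 : c * ((e * a : ↥(S.P : Subgroup K)) : K) * c⁻¹ ∈ (S.P : Subgroup K) :=
    hle ⟨_, hmemT _ (mul_mem (mem_lineGroup_self e _) (gam_le_lineGroup e _ ha)), rfl⟩
  obtain ⟨f, hf, hf', hfc⟩ : ∃ f : ↥(S.P : Subgroup K), ∃ hf : c * (f : K) * c⁻¹ ∈ (S.P : Subgroup K),
      (⟨_, hf⟩ : ↥(S.P : Subgroup K)) ∉ twoStep _ 2 ∧
      ∀ u ∈ T, ⁅u, (f : K)⁆ ∈ Subgroup.zpowers S.x := by
    rcases S.exists_good_conj he (gam_anti (by omega) ha) hea hc h1 h2 with h | h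
    · exact ⟨e, h1, h, fun u hu => (hTD hu).2⟩
    · refine ⟨e * a, h2, h, fun u hu => ?_⟩
      rw [Subgroup.coe_mul, show ⁅u, (e : K) * a⁆ = ⁅u, (e : K)⁆ * ((e : K) * ⁅u, (a : K)⁆ * (e : K)⁻¹) by
        simp only [commutatorElement_def]; group]
      refine mul_mem (hTD hu).2 ?_
      obtain ⟨i, hi⟩ := Subgroup.mem_zpowers_iff.1 (hall u hu)
      rw [← hi, ← conj_zpow, ← (S.commute_x e.2).eq, mul_inv_cancel_right]
      exact zpow_mem (Subgroup.mem_zpowers _) i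
  have hsub : (T.map (MulAut.conj c).toMonoidHom).subgroupOf (S.P : Subgroup K) ≤
      lineGroup _ (⟨_, hf⟩ : ↥(S.P : Subgroup K)) (n - 1 - 1) := by
    rintro u ⟨v, hv, hvu⟩
    refine mem_lineGroup_of_comm S.maxCl hf' (by omega) (by omega) ?_
    obtain ⟨i, hi⟩ := Subgroup.mem_zpowers_iff.1 (hfc v hv)
    rw [← S.zpowers_x0]
    refine Subgroup.mem_zpowers_iff.2 ⟨i, Subtype.ext ?_⟩
    rw [SubgroupClass.coe_zpow]
    show S.x ^ i = ⁅(u : K), c * (f : K) * c⁻¹⁆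
    have hu : (u : K) = c * v * c⁻¹ := hvu.symm
    rw [hu, show ⁅c * v * c⁻¹, c * (f : K) * c⁻¹⁆ = c * ⁅v, (f : K)⁆ * c⁻¹ by
      simp only [commutatorElement_def]; group, ← hi, ← conj_zpow, hc]
  have := Subgroup.card_le_of_le hsub
  rw [Nat.card_congr (Subgroup.subgroupOfEquivOfLe hle).toEquiv,
    Subgroup.card_map_of_injective (MulEquiv.injective _),
    S.maxCl.card_lineGroup (good_of_notMem S.maxCl hf') (by omega) (by omega),
    show n - (n - 1 - 1) + 1 = 3 by omega] at this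
  omega

/-- A fused element is inverted modulo `γ_{n-2}`. -/
theorem exists_inverting_start {e : ↥(S.P : Subgroup K)} (he : e ∉ twoStep _ 2) {g : K}
    (hgx : g * S.x * g⁻¹ = S.x) {d : ↥(S.P : Subgroup K)} (hd : d ∈ gam _ 2)
    (hgd : g * (e : K) * g⁻¹ = d) :
    ∃ h : K, h ∈ Subgroup.normalizer (S.E e (n - 2) : Set K) ∧
      h ∈ Subgroup.normalizer (S.Γ (n - 2) : Set K) ∧ h * e * h⁻¹ * e ∈ S.Γ (n - 2) := by
  have h4 := S.maxCl.four_le
  have hgood := good_of_notMem S.maxCl he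
  obtain ⟨b, hb, hb1, hb2⟩ :=
    S.maxCl.exists_comm_step hgood (show 2 ≤ n - 2 by omega) (by omega) hgood
  rw [show n - 2 - 1 = n - 3 by omega] at hb
  rw [show n - 2 + 1 = n - 1 by omega] at hb2
  set a : ↥(S.P : Subgroup K) := ⁅b, e⁆ with hadef
  obtain ⟨q, hqx, hqe, hqN, ⟨m, hqm⟩, hqa⟩ := S.exists_moving he hgx hd hgd hb1 hb2
  -- the centraliser of `x` modulo `x`
  let C : Subgroup K := Subgroup.centralizer {S.x}
  have hmemC : ∀ u : K, u * S.x * u⁻¹ = S.x → u ∈ C := fun u hu =>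
    Subgroup.mem_centralizer_singleton_iff.2 (mul_inv_eq_iff_eq_mul.1 hu)
  have hmemC' : ∀ u ∈ C, u * S.x * u⁻¹ = S.x := fun u hu =>
    mul_inv_eq_iff_eq_mul.2 (Subgroup.mem_centralizer_singleton_iff.1 hu)
  have hPC : ∀ u : ↥(S.P : Subgroup K), (u : K) ∈ C := fun u =>
    Subgroup.mem_centralizer_singleton_iff.2 (S.commute_x u.2).symm.eq
  let X : Subgroup ↥C := (Subgroup.zpowers S.x).subgroupOf C
  haveI : X.Normal := ⟨fun u hu v => by
    obtain ⟨i, hi⟩ := Subgroup.mem_zpowers_iff.1 hu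
    show ((v * u * v⁻¹ : ↥C) : K) ∈ Subgroup.zpowers S.x
    push_cast
    rw [← show S.x ^ i = (u : K) from hi, ← conj_zpow, hmemC' v v.2]
    exact zpow_mem (Subgroup.mem_zpowers _) i⟩
  let π := QuotientGroup.mk' X
  have hπ1 : ∀ u : ↥C, π u = 1 ↔ (u : K) ∈ Subgroup.zpowers S.x := fun u =>
    QuotientGroup.eq_one_iff u
  let qc : ↥C := ⟨q, hmemC q hqx⟩
  let ec : ↥C := ⟨e, hPC e⟩
  let ac : ↥C := ⟨a, hPC a⟩
  let bc : ↥C := ⟨b, hPC b⟩
  have hΓ : ∀ u : ↥(S.P : Subgroup K), u ∈ gam _ (n - 1) → (u : K) ∈ Subgroup.zpowers S.x :=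
    fun u hu => S.zpowers_x ▸ S.mem_Γ.2 hu
  have hea : Commute (π ec) (π ac) := by
    rw [← commutatorElement_eq_one_iff_commute, ← map_commutatorElement, hπ1]
    exact S.comm_mem_zpowers he (S.mem_E.2 (mem_lineGroup_self e _))
      (S.mem_E.2 (gam_le_lineGroup e _ hb1))
  have hde : π bc * π ec * (π bc)⁻¹ = π ac * π ec := by
    rw [← map_inv, ← map_mul, ← map_mul, ← map_mul]
    refine congrArg π (Subtype.ext ?_)
    show (b : K) * e * (b : K)⁻¹ = (⁅b, e⁆ : ↥(S.P : Subgroup K)) * (e : K)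
    simp [commutatorElement_def]
  have hda : π bc * π ac * (π bc)⁻¹ = π ac := by
    rw [mul_inv_eq_iff_eq_mul]
    refine (commutatorElement_eq_one_iff_mul_comm.1 ?_)
    rw [← map_commutatorElement, hπ1]
    refine hΓ ⁅b, a⁆ ?_
    rcases eq_or_lt_of_le h4 with hn | hn
    · rw [← commutatorElement_inv, show n - 1 = 2 + 1 by omega]
      exact inv_mem (comm_mem_gam_succ (by norm_num) (gam_anti (by omega) hb1) b)
    · exact gam_anti (by omega) (comm_mem_gam (show 1 ≤ n - 3 by omega) (by omega) hb hb1)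
  have hqe' : π qc * π ec * (π qc)⁻¹ = π ec := by
    rw [mul_inv_eq_iff_eq_mul, ← commutatorElement_eq_one_iff_mul_comm, ← map_commutatorElement,
      hπ1]
    exact hqe
  -- the image of `q a q⁻¹`
  have he3 : π ec ^ 3 = 1 := by
    rw [← map_pow, hπ1, SubmonoidClass.coe_pow]
    exact S.cube_mem he
  have ha3 : π ac ^ 3 = 1 := by
    rw [← map_pow, hπ1, SubmonoidClass.coe_pow]
    obtain ⟨x', hx'⟩ := S.maxCl.exists_good
    exact hΓ (a ^ 3) (gam_anti (by omega) (S.maxCl.pow_mem_gam hx' (by omega) hb1))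
  obtain ⟨k, hk, l, hl, hkl⟩ : ∃ k < 3, ∃ l < 3,
      π qc * π ac * (π qc)⁻¹ = π ec ^ k * π ac ^ l := by
    obtain ⟨u, hu, huq⟩ := (Subgroup.mem_normalizer_iff.1 hqN (a : K)).1
      (S.mem_E.2 (gam_le_lineGroup e _ hb1))
    rw [SetLike.mem_coe, lineGroup, Subgroup.mem_sup_of_normal_right] at hu
    obtain ⟨z, hz, w, hw, rfl⟩ := hu
    obtain ⟨k, hk⟩ := mem_powers_iff_mem_zpowers.2 hz
    change e ^ k = z at hk
    subst hk
    obtain ⟨l, hl⟩ := S.maxCl.exists_pow (show 2 ≤ n - 2 by omega) hb1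
      (by rwa [show n - 2 + 1 = n - 1 by omega]) hw
    rw [show n - 2 + 1 = n - 1 by omega] at hl
    refine ⟨k % 3, Nat.mod_lt _ (by norm_num), l % 3, Nat.mod_lt _ (by norm_num), ?_⟩
    rw [← pow_eq_pow_mod _ he3, ← pow_eq_pow_mod _ ha3, ← map_inv, ← map_mul, ← map_mul, ← map_pow,
      ← map_pow, ← map_mul, eq_comm, ← inv_mul_eq_one, ← map_inv, ← map_mul, hπ1]
    have h2 := hΓ _ hl
    push_cast at h2 ⊢
    show ((e : K) ^ k * (a : K) ^ l)⁻¹ * (q * (a : K) * q⁻¹) ∈ Subgroup.zpowers S.x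
    rw [show q * (a : K) * q⁻¹ = (e : K) ^ k * (w : K) by
      simpa using huq.symm]
    rwa [mul_inv_rev, mul_assoc, inv_mul_cancel_left]
  have hpowq : ∀ i : ℕ, π qc ^ i * π ac * (π qc ^ i)⁻¹ =
      π ec ^ (k * (Finset.range i).sum (fun r => l ^ r)) * π ac ^ l ^ i := by
    intro i
    induction i with
    | zero => simp
    | succ i ih =>
      rw [pow_succ', show π qc * π qc ^ i * π ac * (π qc * π qc ^ i)⁻¹ =
        π qc * (π qc ^ i * π ac * (π qc ^ i)⁻¹) * (π qc)⁻¹ by group, ih,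
        show π qc * (π ec ^ (k * (Finset.range i).sum (fun r => l ^ r)) * π ac ^ l ^ i) * (π qc)⁻¹ =
          (π qc * π ec * (π qc)⁻¹) ^ (k * (Finset.range i).sum (fun r => l ^ r)) *
            (π qc * π ac * (π qc)⁻¹) ^ l ^ i by rw [conj_pow, conj_pow]; group,
        hqe', hkl, (hea.pow_pow k l).mul_pow, ← pow_mul, ← pow_mul, ← mul_assoc, ← pow_add,
        Finset.sum_range_succ, ← pow_succ' l, mul_add]
  have hqfix : ∀ i : ℕ, π qc ^ i = 1 → π ac = π ec ^ (k * (Finset.range i).sum (fun r => l ^ r)) *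
      π ac ^ l ^ i := fun i hi => by rw [← hpowq i, hi, one_mul, inv_one, mul_one]
  have hq3 : π qc ^ 3 ^ m = 1 := by
    rw [← map_pow, show qc ^ 3 ^ m = 1 from Subtype.ext hqm, map_one]
  have hane : π ac ∉ Subgroup.zpowers (π ec) := by
    intro hc
    obtain ⟨i, hi⟩ := Subgroup.mem_zpowers_iff.1 hc
    have h1 : ((ec ^ i)⁻¹ * ac : ↥C) ∈ X := by
      rw [← QuotientGroup.eq_one_iff]
      show π _ = 1
      rw [map_mul, map_inv, map_zpow, hi, inv_mul_cancel]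
    have h2 : ((e ^ i)⁻¹ * a : ↥(S.P : Subgroup K)) ∈ gam _ (n - 1) := by
      rw [← S.mem_Γ, ← S.zpowers_x]
      simpa [X, Subgroup.mem_subgroupOf] using h1
    have h3 : e ^ i ∈ gam ↥(S.P : Subgroup K) (n - 2) := by
      have := mul_mem hb1 (inv_mem (gam_anti (show n - 2 ≤ n - 1 by omega) h2))
      rwa [show a * ((e ^ i)⁻¹ * a)⁻¹ = e ^ i by group] at this
    by_cases hi3 : (3 : ℤ) ∣ i
    · obtain ⟨t, rfl⟩ := hi3
      refine hb2 ?_
      have h4' : e ^ (3 * t) ∈ gam ↥(S.P : Subgroup K) (n - 1) := by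
        rw [zpow_mul, zpow_ofNat]
        exact zpow_mem (S.maxCl.pow_mem_gam_last hgood) t
      have := mul_mem h4' h2
      rwa [mul_inv_cancel_left] at this
    · obtain ⟨r, hr⟩ : ∃ r : ℕ, (i % 3 : ℤ) = r := ⟨(i % 3).toNat, (Int.toNat_of_nonneg (by omega)).symm⟩
      have h5 : e ^ r ∈ twoStep ↥(S.P : Subgroup K) 2 := by
        have h6 : e ^ (3 * (i / 3)) ∈ twoStep ↥(S.P : Subgroup K) 2 := by
          rw [zpow_mul, zpow_ofNat]
          exact zpow_mem (gam_two_le_twoStep (by norm_num) (S.maxCl.pow_mem_gam_two e)) _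
        have := mul_mem (gam_two_le_twoStep (by norm_num) (gam_anti (by omega) h3)) (inv_mem h6)
        rwa [← zpow_sub, show i - 3 * (i / 3) = (r : ℤ) by omega, zpow_natCast] at this
      have := dvd_of_pow_mem S.maxCl he h5
      omega
  have hl1 : l = 1 := by
    rcases (show l = 0 ∨ l = 1 ∨ l = 2 by omega) with rfl | rfl | rfl
    · exfalso
      refine hane ?_
      have h1 := hqfix _ hq3
      rw [zero_pow (by positivity), pow_zero, mul_one] at h1
      rw [h1]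
      exact Subgroup.npow_mem_zpowers _ _
    · rfl
    · exfalso
      refine hane ?_
      have hodd : (2 : ℕ) ^ 3 ^ m % 3 = 2 := by
        obtain ⟨t, ht⟩ := (show Odd (3 ^ m) from (by decide : Odd 3).pow)
        rw [ht, pow_succ, pow_mul, Nat.mul_mod, Nat.pow_mod]
        norm_num
      have h1 := hqfix _ hq3
      rw [pow_eq_pow_mod (2 ^ 3 ^ m) ha3, hodd] at h1
      have h2 : π ac ^ 2 * π ac = 1 := by rw [← pow_succ]; exact ha3
      have h3 : π ac * π ac = π ec ^ (k * (Finset.range (3 ^ m)).sum (fun r => 2 ^ r)) := by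
        nth_rw 2 [h1]
        rw [← mul_assoc, (hea.pow_left _).symm.eq, mul_assoc, ← pow_succ', ha3, mul_one]
      rw [← pow_two] at h3
      have h5 : π ac = (π ac ^ 2)⁻¹ := eq_inv_of_mul_eq_one_right h2
      rw [h5, h3]
      exact inv_mem (Subgroup.npow_mem_zpowers _ _)
  subst hl1
  have hk0 : k ≠ 0 := by
    rintro rfl
    refine hqa ?_
    rw [pow_zero, one_mul, pow_one, mul_inv_eq_iff_eq_mul, ← commutatorElement_eq_one_iff_mul_comm,
      ← map_commutatorElement, hπ1] at hkl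
    exact hkl
  obtain ⟨q', hq'e, hq'a⟩ : ∃ q' : ↥C, π q' * π ec * (π q')⁻¹ = π ec ∧
      π q' * π ac * (π q')⁻¹ = (π ec)⁻¹ * π ac := by
    have hinv : (π ec)⁻¹ = π ec ^ 2 := inv_eq_of_mul_eq_one_right (by rw [← pow_succ']; exact he3)
    rcases (show k = 1 ∨ k = 2 by omega) with rfl | rfl
    · refine ⟨qc ^ 2, ?_, ?_⟩
      · rw [map_pow, pow_two, show π qc * π qc * π ec * (π qc * π qc)⁻¹ =
          π qc * (π qc * π ec * (π qc)⁻¹) * (π qc)⁻¹ by group, hqe', hqe']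
      · rw [map_pow, hpowq 2, hinv]
        simp
    · exact ⟨qc, hqe', by rw [hkl, pow_one, hinv]⟩
  obtain ⟨hwe, hwa⟩ := exists_inverting hea hde hda hq'e hq'a
  set w : ↥C := bc * q' * bc * (bc * q' * bc) with hwdef
  have hπw : π w = π bc * π q' * π bc * (π bc * π q' * π bc) := by rw [hwdef]; simp only [map_mul]
  rw [← hπw] at hwe hwa
  have hwe' : (w : K) * e * (w : K)⁻¹ * e ∈ Subgroup.zpowers S.x := by
    have h1 : π (w * ec * w⁻¹ * ec) = 1 := by
      rw [map_mul, map_mul, map_mul, map_inv, hwe, inv_mul_cancel]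
    exact (hπ1 _).1 h1
  have hwa' : (w : K) * a * (w : K)⁻¹ * a ∈ Subgroup.zpowers S.x := by
    have h1 : π (w * ac * w⁻¹ * ac) = 1 := by
      rw [map_mul, map_mul, map_mul, map_inv, hwa, inv_mul_cancel]
    exact (hπ1 _).1 h1
  have hxΓ : Subgroup.zpowers S.x ≤ S.Γ (n - 2) :=
    S.zpowers_x ▸ Subgroup.map_mono (gam_anti (by omega))
  have hΓN : (w : K) ∈ Subgroup.normalizer (S.Γ (n - 2) : Set K) := by
    refine Subgroup.mem_normalizer_fintype fun v hv => ?_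
    obtain ⟨v, hv, rfl⟩ := hv
    obtain ⟨i, hi⟩ := S.maxCl.exists_pow (show 2 ≤ n - 2 by omega) hb1
      (by rwa [show n - 2 + 1 = n - 1 by omega]) hv
    rw [show n - 2 + 1 = n - 1 by omega] at hi
    obtain ⟨r, hr⟩ := Subgroup.mem_zpowers_iff.1 (hΓ _ hi)
    have hv2 : (v : K) = (a : K) ^ i * S.x ^ r := by
      rw [hr]; push_cast; rw [mul_inv_cancel_left]
    show (w : K) * v * (w : K)⁻¹ ∈ S.Γ (n - 2)
    rw [hv2, show (w : K) * ((a : K) ^ i * S.x ^ r) * (w : K)⁻¹ =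
      ((w : K) * a * (w : K)⁻¹) ^ i * ((w : K) * S.x * (w : K)⁻¹) ^ r by
        rw [conj_pow, conj_zpow]; group, hmemC' _ w.2]
    refine mul_mem (pow_mem ?_ i) (hxΓ (zpow_mem (Subgroup.mem_zpowers _) r))
    have := mul_mem (hxΓ hwa') (inv_mem (S.mem_Γ.2 hb1))
    rwa [mul_inv_cancel_right] at this
  have hE : (w : K) * e * (w : K)⁻¹ ∈ S.E e (n - 2) := by
    have := mul_mem (S.Γ_le_E e _ (hxΓ hwe')) (inv_mem (S.mem_E.2 (mem_lineGroup_self e _)))
    rwa [mul_inv_cancel_right] at this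
  refine ⟨w, Subgroup.mem_normalizer_fintype fun v hv => ?_, hΓN, hxΓ hwe'⟩
  obtain ⟨v, hv, rfl⟩ := hv
  rw [SetLike.mem_coe, lineGroup, Subgroup.mem_sup_of_normal_right] at hv
  obtain ⟨z, hz, y, hy, rfl⟩ := hv
  obtain ⟨i, rfl⟩ := Subgroup.mem_zpowers_iff.1 hz
  simp only [Subgroup.coe_subtype, Subgroup.coe_mul, SubgroupClass.coe_zpow]
  rw [show (w : K) * ((e : K) ^ i * (y : K)) * (w : K)⁻¹ =
    ((w : K) * e * (w : K)⁻¹) ^ i * ((w : K) * y * (w : K)⁻¹) by rw [conj_zpow]; group]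
  exact mul_mem (zpow_mem hE i)
    (S.Γ_le_E e _ ((Subgroup.mem_normalizer_iff.1 hΓN (y : K)).1 (S.mem_Γ.2 hy)))

/-- Extension of the inversion one step up. -/
theorem exists_inverting_step {e : ↥(S.P : Subgroup K)} (he : e ∉ twoStep _ 2) {j : ℕ} (hj : 2 ≤ j)
    (hjn : j + 2 ≤ n) {h : K} (hE : h ∈ Subgroup.normalizer (S.E e j : Set K))
    (hΓ : h ∈ Subgroup.normalizer (S.Γ j : Set K)) (hinv : h * e * h⁻¹ * e ∈ S.Γ j) :
    ∃ h' : K, h' ∈ Subgroup.normalizer (S.E e (j - 1) : Set K) ∧ h' * e * h'⁻¹ * e ∈ S.Γ j := by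
  have h4 := S.maxCl.four_le
  let H : Subgroup K := Subgroup.normalizer (S.E e j : Set K) ⊓ Subgroup.normalizer (S.Γ j : Set K)
  let M : Subgroup K :=
    { carrier := {g | g ∈ H ∧ ∀ y ∈ S.E e j, ⁅g, y⁆ ∈ S.Γ j}
      one_mem' := ⟨one_mem H, fun y _ => by simp⟩
      mul_mem' := by
        rintro g g' ⟨hg, hg'⟩ ⟨hk, hk'⟩
        refine ⟨mul_mem hg hk, fun y hy => ?_⟩
        rw [show ⁅g * g', y⁆ = g * ⁅g', y⁆ * g⁻¹ * ⁅g, y⁆ by
          simp only [commutatorElement_def]; group]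
        exact mul_mem ((Subgroup.mem_normalizer_iff.1 hg.2 _).1 (hk' y hy)) (hg' y hy)
      inv_mem' := by
        rintro g ⟨hg, hg'⟩
        refine ⟨inv_mem hg, fun y hy => ?_⟩
        rw [show ⁅g⁻¹, y⁆ = g⁻¹ * ⁅g, y⁆⁻¹ * g⁻¹⁻¹ by simp only [commutatorElement_def]; group]
        exact (Subgroup.mem_normalizer_iff.1 (inv_mem hg.2) _).1 (inv_mem (hg' y hy)) }
  have hle : ∀ i, i ≤ j → S.E e j ≤ S.E e i := fun i hi =>
    Subgroup.map_mono (sup_le_sup_left (gam_anti hi) _)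
  have hA : S.E e (j - 1) ≤ M := by
    intro u hu
    refine ⟨⟨S.E_le_normalizer e hj hu, S.P_le_normalizer_Γ j (S.E_le e _ hu)⟩, fun y hy => ?_⟩
    obtain ⟨u, hu', rfl⟩ := hu
    obtain ⟨y, hy', rfl⟩ := hle (j - 1) (by omega) hy
    rw [← map_commutatorElement]
    refine Subgroup.mem_map_of_mem _ ?_
    rcases eq_or_lt_of_le hj with rfl | hj3
    · exact comm_mem_gam_succ le_rfl (gam_one (G := ↥(S.P : Subgroup K)) ▸ Subgroup.mem_top u) y
    · rw [show gam ↥(S.P : Subgroup K) j = gam ↥(S.P : Subgroup K) (j - 1 + 1) by congr 1; omega]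
      rw [← S.maxCl.commutator_lineGroup (good_of_notMem S.maxCl he) (show 2 ≤ j - 1 by omega)
        (by omega)]
      exact Subgroup.commutator_mem_commutator hu' hy'
  have hAc : Nat.card (S.E e (j - 1)) = 3 ^ (n - j + 2) := by
    rw [S.card_E he (by omega) (by omega)]; congr 1; omega
  let B : Subgroup K := (S.E e (j - 1)).map (MulAut.conj h).toMonoidHom
  have hB : B ≤ M := by
    rintro _ ⟨u, hu, rfl⟩
    obtain ⟨hu1, hu2⟩ := hA hu
    refine ⟨mul_mem (mul_mem ⟨hE, hΓ⟩ hu1) (inv_mem ⟨hE, hΓ⟩), fun y hy => ?_⟩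
    show ⁅h * u * h⁻¹, y⁆ ∈ _
    rw [show ⁅h * u * h⁻¹, y⁆ = h * ⁅u, h⁻¹ * y * h⁻¹⁻¹⁆ * h⁻¹ by
      simp only [commutatorElement_def]; group]
    exact (Subgroup.mem_normalizer_iff.1 hΓ _).1
      (hu2 _ ((Subgroup.mem_normalizer_iff.1 (inv_mem hE) y).1 hy))
  obtain ⟨g, hg, hgB⟩ := exists_conj_of_largest (p := 3) hA hB (S.P.2.to_le (S.E_le e _))
    ((S.P.2.to_le (S.E_le e _)).map _)
    (fun T hT hTp => hAc ▸ S.card_le_of_normalizes he hj hjn (fun u hu => (hT hu).1.1) hTp)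
    (by rw [Subgroup.card_map_of_injective (MulEquiv.injective _)])
  refine ⟨g * h, ?_, ?_⟩
  · refine Subgroup.mem_normalizer_fintype fun v hv => ?_
    rw [SetLike.mem_coe, ← hgB]
    exact ⟨h * v * h⁻¹, ⟨v, hv, rfl⟩, by simp [mul_assoc]⟩
  · rw [show g * h * (e : K) * (g * h)⁻¹ * e =
      g * (h * e * h⁻¹ * e) * g⁻¹ * ⁅g, (e : K)⁻¹⁆ by simp only [commutatorElement_def]; group]
    exact mul_mem ((Subgroup.mem_normalizer_iff.1 hg.1.2 _).1 hinv)
      (hg.2 _ (inv_mem (S.mem_E.2 (mem_lineGroup_self e j))))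

/-- Below `γ_1` the normaliser of `⟨e⟩γ_i` normalises `γ_i`. -/
theorem mem_normalizer_Γ {e : ↥(S.P : Subgroup K)} (he : e ∉ twoStep _ 2) {i : ℕ} (hi : 2 ≤ i)
    (hin : i + 3 ≤ n) {h : K} (hE : h ∈ Subgroup.normalizer (S.E e i : Set K)) :
    h ∈ Subgroup.normalizer (S.Γ i : Set K) := by
  refine Subgroup.mem_normalizer_fintype fun v hv => ?_
  obtain ⟨v, hv, rfl⟩ := hv
  obtain ⟨u, hu, huv⟩ := (Subgroup.mem_normalizer_iff.1 hE (v : K)).1 (S.Γ_le_E e i (S.mem_Γ.2 hv))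
  by_cases hu1 : u ∈ twoStep _ 2
  · exact ⟨u, lineGroup_inf_twoStep S.maxCl he (by omega) hi hu hu1, huv⟩
  exfalso
  obtain ⟨U, hUi, hUc, hUv⟩ : ∃ U : Subgroup ↥(S.P : Subgroup K), U ≤ gam _ i ∧
      27 ≤ Nat.card U ∧ ∀ w ∈ U, Commute w v := by
    have hcomm : ∀ (a b : ℕ), 1 ≤ a → 1 ≤ b → n ≤ a + b → ∀ s ∈ gam ↥(S.P : Subgroup K) a,
        ∀ t ∈ gam ↥(S.P : Subgroup K) b, Commute s t := fun a b ha hb hab s hs t ht =>
      commutatorElement_eq_one_iff_commute.1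
        (S.maxCl.mem_gam_one hab (comm_mem_gam ha hb hs ht))
    by_cases hv2 : v ∈ gam _ (n - 2)
    · refine ⟨gam _ (n - 3), gam_anti (by omega), ?_, fun w hw =>
        hcomm (n - 3) (n - 2) (by omega) (by omega) (by omega) w hw v hv2⟩
      rw [S.maxCl.card_gam _ (by omega) (by omega), show n - (n - 3) = 3 by omega]; norm_num
    · refine ⟨Subgroup.zpowers v ⊔ gam _ (n - 2),
        sup_le (Subgroup.zpowers_le.2 hv) (gam_anti (by omega)), ?_, ?_⟩
      · have hlt : gam ↥(S.P : Subgroup K) (n - 2) < Subgroup.zpowers v ⊔ gam _ (n - 2) :=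
          lt_of_le_of_ne le_sup_right fun h' =>
            hv2 (h'.ge (Subgroup.mem_sup_left (Subgroup.mem_zpowers v)))
        obtain ⟨r, hr⟩ := IsPGroup.iff_card.1 (S.maxCl.isPGroup.to_subgroup
          (Subgroup.zpowers v ⊔ gam ↥(S.P : Subgroup K) (n - 2)))
        have h1 : Nat.card (gam ↥(S.P : Subgroup K) (n - 2)) <
            Nat.card ↥(Subgroup.zpowers v ⊔ gam _ (n - 2)) :=
          lt_of_le_of_ne (Subgroup.card_le_of_le hlt.le)
            fun he' => hlt.ne (Subgroup.eq_of_le_of_card_ge hlt.le he'.ge)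
        rw [hr, S.maxCl.card_gam _ (by omega) (by omega), Nat.pow_lt_pow_iff_right (by norm_num)]
          at h1
        rw [hr, show (27 : ℕ) = 3 ^ 3 by norm_num]
        exact Nat.pow_le_pow_right (by norm_num) (by omega)
      · intro w hw
        refine (Subgroup.mem_centralizer_singleton_iff.1 ((sup_le (Subgroup.zpowers_le.2
          (Subgroup.mem_centralizer_singleton_iff.2 rfl)) fun t ht =>
            Subgroup.mem_centralizer_singleton_iff.2
              (hcomm (n - 2) i (by omega) (by omega) (by omega) t ht v hv).eq) hw :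
          w ∈ Subgroup.centralizer {v}))
  let U' : Subgroup K := (U.map (S.P : Subgroup K).subtype).map (MulAut.conj h).toMonoidHom
  have hU'P : U' ≤ (S.P : Subgroup K) := by
    rintro _ ⟨_, ⟨w, hw, rfl⟩, rfl⟩
    exact S.E_le e i ((Subgroup.mem_normalizer_iff.1 hE _).1 (S.Γ_le_E e i (S.mem_Γ.2 (hUi hw))))
  have hsub : U'.subgroupOf (S.P : Subgroup K) ≤ lineGroup _ u (n - 1) := by
    rintro t ⟨_, ⟨w, hw, rfl⟩, hwt⟩
    refine mem_lineGroup_of_comm S.maxCl hu1 (by omega) le_rfl ?_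
    have : Commute t u := Subtype.ext (by
      show (t : K) * u = u * t
      rw [show (u : K) = h * v * h⁻¹ from huv, ← show h * (w : K) * h⁻¹ = t from hwt]
      have := congrArg Subtype.val (hUv w hw).eq
      simp only [Subgroup.coe_mul] at this
      calc h * (w : K) * h⁻¹ * (h * v * h⁻¹) = h * ((w : K) * v) * h⁻¹ := by group
        _ = _ := by rw [this]; group)
    rw [commutatorElement_eq_one_iff_commute.2 this]
    exact one_mem _
  have h1 := Subgroup.card_le_of_le hsub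
  rw [Nat.card_congr (Subgroup.subgroupOfEquivOfLe hU'P).toEquiv,
    Subgroup.card_map_of_injective (MulEquiv.injective _),
    Subgroup.card_map_of_injective (Subgroup.subtype_injective _),
    S.maxCl.card_lineGroup (good_of_notMem S.maxCl hu1) (by omega) (by omega),
    show n - (n - 1) + 1 = 2 by omega] at h1
  omega

/-- A fused element is inverted modulo `γ₂` by the normaliser of the Sylow subgroup. -/
theorem exists_inverting_normalizer {e : ↥(S.P : Subgroup K)} (he : e ∉ twoStep _ 2) {g : K}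
    (hgx : g * S.x * g⁻¹ = S.x) {d : ↥(S.P : Subgroup K)} (hd : d ∈ gam _ 2)
    (hgd : g * (e : K) * g⁻¹ = d) :
    ∃ h ∈ Subgroup.normalizer ((S.P : Subgroup K) : Set K), h * e * h⁻¹ * e ∈ S.Γ 2 := by
  have h4 := S.maxCl.four_le
  have key : ∀ t, t + 2 + 2 ≤ n → ∃ h : K,
      h ∈ Subgroup.normalizer (S.E e (n - 2 - t) : Set K) ∧
      h ∈ Subgroup.normalizer (S.Γ (n - 2 - t) : Set K) ∧ h * e * h⁻¹ * e ∈ S.Γ (n - 2 - t) := by
    intro t
    induction t with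
    | zero => exact fun _ => S.exists_inverting_start he hgx hd hgd
    | succ t ih =>
      intro ht
      obtain ⟨h, hE, hΓ, hinv⟩ := ih (by omega)
      obtain ⟨h', hE', hinv'⟩ := S.exists_inverting_step he (by omega) (by omega) hE hΓ hinv
      rw [show n - 2 - t - 1 = n - 2 - (t + 1) by omega] at hE'
      exact ⟨h', hE', S.mem_normalizer_Γ he (by omega) (by omega) hE',
        Subgroup.map_mono (gam_anti (by omega)) hinv'⟩
  obtain ⟨h, hE, hΓ, hinv⟩ := key (n - 4) (by omega)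
  rw [show n - 2 - (n - 4) = 2 by omega] at hE hΓ hinv
  obtain ⟨h', hE', hinv'⟩ := S.exists_inverting_step he le_rfl (by omega) hE hΓ hinv
  refine ⟨h', ?_, hinv'⟩
  rwa [show S.E e (2 - 1) = (S.P : Subgroup K) by
    rw [E, show 2 - 1 = 1 from rfl, lineGroup_one, ← MonoidHom.range_eq_map,
      Subgroup.range_subtype]] at hE'

end Setup

end CfsgLib.IsolatedRankTwo
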