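import Cfsg.Agent.IsolatedRankTwo.MaxClassEven

/-!
The contradiction for a Sylow `3`-subgroup of maximal class and even exponent: Grün's first theorem
puts it into a maximal subgroup.
-/

set_option autoImplicit false

open scoped commutatorElement

namespace CfsgLib.IsolatedRankTwo

open CfsgLib.PGroup CfsgLib.PGroup.MaxClass

variable {K : Type*} [Group K] [Finite K] [Fact (Nat.Prime 3)] {n : ℕ}

namespace Setup

variable (S : Setup K n)

/-- Conjugation by an element of the normaliser of the Sylow subgroup. -/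
def act (g : ↥(Subgroup.normalizer ((S.P : Subgroup K) : Set K))) :
    MulAut ↥(S.P : Subgroup K) where
  toFun u := ⟨(g : K) * u * (g : K)⁻¹, (Subgroup.mem_normalizer_iff.1 g.2 _).1 u.2⟩
  invFun u := ⟨(g : K)⁻¹ * u * (g : K)⁻¹⁻¹, (Subgroup.mem_normalizer_iff.1 (inv_mem g.2) _).1 u.2⟩
  left_inv u := Subtype.ext (by show (g : K)⁻¹ * ((g : K) * u * (g : K)⁻¹) * (g : K)⁻¹⁻¹ = u; group)
  right_inv u := Subtype.ext (by show (g : K) * ((g : K)⁻¹ * u * (g : K)⁻¹⁻¹) * (g : K)⁻¹ = u; group)
  map_mul' u v := Subtype.ext (by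
    show (g : K) * ((u : K) * v) * (g : K)⁻¹ = (g : K) * u * (g : K)⁻¹ * ((g : K) * v * (g : K)⁻¹)
    group)

theorem act_mul (g h : ↥(Subgroup.normalizer ((S.P : Subgroup K) : Set K)))
    (u : ↥(S.P : Subgroup K)) : S.act (g * h) u = S.act g (S.act h u) :=
  Subtype.ext (by
    show ((g : K) * h) * u * ((g : K) * h)⁻¹ = (g : K) * ((h : K) * u * (h : K)⁻¹) * (g : K)⁻¹
    group)

theorem act_fix (g : ↥(Subgroup.normalizer ((S.P : Subgroup K) : Set K))) :
    S.act g S.x0 = S.x0 :=
  Subtype.ext (CfsgLib.LocalP.isolated_eq_of_mem S.iso S.P.2 S.memP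
    ((Subgroup.mem_normalizer_iff.1 g.2 _).1 S.memP))

theorem act_twoStep (g : ↥(Subgroup.normalizer ((S.P : Subgroup K) : Set K)))
    {s : ↥(S.P : Subgroup K)} (hs : s ∈ twoStep _ 2) : S.act g s * s⁻¹ ∈ gam _ 2 :=
  fix_twoStep_mod S.maxCl S.even (S.act g) S.x0_mem_gam S.x0_ne_one (S.act_fix g) hs

/-- The projection modulo `γ₂`. -/
def proj : ↥(S.P : Subgroup K) →* ↥(S.P : Subgroup K) ⧸ gam ↥(S.P : Subgroup K) 2 :=
  QuotientGroup.mk' _

theorem proj_eq_one {u : ↥(S.P : Subgroup K)} : S.proj u = 1 ↔ u ∈ gam _ 2 :=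
  QuotientGroup.eq_one_iff u

theorem proj_comm (u v : ↥(S.P : Subgroup K)) : Commute (S.proj u) (S.proj v) :=
  mk_central le_rfl (gam_one (G := ↥(S.P : Subgroup K)) ▸ Subgroup.mem_top u) _

theorem proj_act_twoStep (g : ↥(Subgroup.normalizer ((S.P : Subgroup K) : Set K)))
    {s : ↥(S.P : Subgroup K)} (hs : s ∈ twoStep _ 2) : S.proj (S.act g s) = S.proj s := by
  rw [← mul_inv_eq_one, ← map_inv, ← map_mul, S.proj_eq_one]
  exact S.act_twoStep g hs

theorem proj_pow_three (u : ↥(S.P : Subgroup K)) : S.proj u ^ 3 = 1 := by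
  rw [← map_pow, S.proj_eq_one]
  exact S.maxCl.pow_mem_gam_two u

/-- An element of the normaliser fixing `e` modulo `P₁` fixes it modulo `γ₂`. -/
theorem proj_act_eq (g : ↥(Subgroup.normalizer ((S.P : Subgroup K) : Set K)))
    {e v : ↥(S.P : Subgroup K)} (hv : v ∈ twoStep _ 2)
    (hg : S.proj (S.act g e) = S.proj e * S.proj v) : S.proj v = 1 := by
  have hpow : ∀ i : ℕ, S.proj (S.act (g ^ i) e) = S.proj e * S.proj v ^ i := by
    intro i
    induction i with
    | zero =>
      rw [pow_zero, pow_zero, mul_one]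
      exact congrArg S.proj (Subtype.ext (by
        show ((1 : ↥(Subgroup.normalizer ((S.P : Subgroup K) : Set K))) : K) * e *
          ((1 : ↥(Subgroup.normalizer ((S.P : Subgroup K) : Set K))) : K)⁻¹ = e
        simp))
    | succ i ih =>
      have h1 : (e * v ^ i)⁻¹ * S.act (g ^ i) e ∈ gam _ 2 := by
        rw [← S.proj_eq_one, map_mul, map_inv, map_mul, map_pow, ih, inv_mul_cancel]
      set c := (e * v ^ i)⁻¹ * S.act (g ^ i) e with hc
      rw [pow_succ', act_mul, show S.act (g ^ i) e = e * v ^ i * c by rw [hc, mul_inv_cancel_left],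
        map_mul (S.act g), map_mul (S.act g), map_pow (S.act g), map_mul, map_mul, map_pow, hg,
        S.proj_act_twoStep g hv, S.proj_eq_one.2 (map_gam _ h1), mul_one, pow_succ', mul_assoc]
  let N := Subgroup.normalizer ((S.P : Subgroup K) : Set K)
  haveI hn : ((S.P : Subgroup K).subgroupOf N).Normal := Subgroup.normal_in_normalizer
  set m := ((S.P : Subgroup K).subgroupOf N).index with hm
  have hm3 : ¬ 3 ∣ m := (S.P.subtype Subgroup.le_normalizer).not_dvd_index
  have hgm : g ^ m ∈ (S.P : Subgroup K).subgroupOf N := Subgroup.pow_index_mem _ g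
  have h2 : S.proj (S.act (g ^ m) e) = S.proj e := by
    have h3 : S.act (g ^ m) e = (⟨_, hgm⟩ : ↥(S.P : Subgroup K)) * e *
        (⟨_, hgm⟩ : ↥(S.P : Subgroup K))⁻¹ := Subtype.ext rfl
    rw [h3, map_mul, map_mul, map_inv, (S.proj_comm _ e).eq, mul_inv_cancel_right]
  rw [hpow m, mul_eq_left] at h2
  have h5 := Nat.dvd_gcd (orderOf_dvd_of_pow_eq_one h2) (orderOf_dvd_of_pow_eq_one (S.proj_pow_three v))
  rw [(((Nat.prime_three).coprime_iff_not_dvd.mpr hm3).symm).gcd_eq_one, Nat.dvd_one,
    orderOf_eq_one_iff] at h5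
  exact h5

/-- The normaliser acts on `e` modulo `γ₂` by `1` or, up to `P₁`, by inversion. -/
theorem act_cases {e : ↥(S.P : Subgroup K)} (he : e ∉ twoStep _ 2)
    (g : ↥(Subgroup.normalizer ((S.P : Subgroup K) : Set K))) :
    S.proj (S.act g e) = S.proj e ∨
      ∃ v ∈ twoStep ↥(S.P : Subgroup K) 2, S.proj (S.act g e) = (S.proj e)⁻¹ * S.proj v := by
  obtain ⟨k, hk, v, hv, hkv⟩ := exists_decomp S.maxCl he (S.act g e)
  rcases (show k = 0 ∨ k = 1 ∨ k = 2 by omega) with rfl | rfl | rfl
  · exfalso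
    rw [pow_zero, one_mul] at hkv
    have := map_twoStep (S.act g)⁻¹ (hkv ▸ hv : S.act g e ∈ twoStep _ 2)
    rw [MulAut.inv_apply_self] at this
    exact he this
  · have h1 : S.proj (S.act g e) = S.proj e * S.proj v := by rw [hkv, map_mul, pow_one]
    exact Or.inl (by rw [h1, S.proj_act_eq g hv h1, mul_one])
  · refine Or.inr ⟨v, hv, ?_⟩
    rw [hkv, map_mul, map_pow,
      show S.proj e ^ 2 = (S.proj e)⁻¹ from eq_inv_of_mul_eq_one_left (by
        rw [← pow_succ]; exact S.proj_pow_three e)]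

include S in
/-- The exponent of a Sylow `3`-subgroup of maximal class of a perfect group with an isolated
element is odd. -/
theorem false_of_even : False := by
  classical
  have h4 := S.maxCl.four_le
  set N := Subgroup.normalizer ((S.P : Subgroup K) : Set K)
  -- elements fused into `γ₂`
  have hfused : ∀ e : ↥(S.P : Subgroup K), e ∉ gam _ 2 → ∀ g : K,
      ∀ w : ↥(S.P : Subgroup K), w ∈ gam _ 2 → g * (e : K) * g⁻¹ = w →
      e ∉ twoStep _ 2 ∧ ∃ h : N, S.proj (S.act h e) * S.proj e = 1 := by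
    intro e he g w hw hge
    have he1 : e ∉ twoStep _ 2 := fun h => pow_ne_one_of_twoStep S.maxCl S.even S.rankP h he (by
      obtain ⟨t, ht⟩ := S.even
      have h1 : w ^ 3 ^ (n / 2 - 1) = 1 :=
        S.maxCl.mem_gam_one (show n ≤ 2 + 2 * (n / 2 - 1) by omega)
          (pow_three_pow S.maxCl le_rfl hw _)
      refine Subtype.ext ?_
      rw [SubmonoidClass.coe_pow, OneMemClass.coe_one]
      have h2 : (g * (e : K) * g⁻¹) ^ 3 ^ (n / 2 - 1) = 1 := by
        rw [hge, ← SubmonoidClass.coe_pow, h1, OneMemClass.coe_one]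
      rw [conj_pow, mul_inv_eq_one, mul_eq_left] at h2
      exact h2)
    refine ⟨he1, ?_⟩
    have hxw : S.x ∈ Subgroup.centralizer ({(w : K)} : Set K) :=
      Subgroup.mem_centralizer_singleton_iff.2 (S.commute_x w.2).eq
    have hgxw : g * S.x * g⁻¹ ∈ Subgroup.centralizer ({(w : K)} : Set K) := by
      rw [Subgroup.mem_centralizer_singleton_iff, ← hge]
      calc g * S.x * g⁻¹ * (g * (e : K) * g⁻¹) = g * (S.x * e) * g⁻¹ := by group
        _ = g * ((e : K) * S.x) * g⁻¹ := by rw [(S.commute_x e.2).eq]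
        _ = _ := by group
    obtain ⟨c, hc, hcx⟩ := CfsgLib.LocalP.isolated_conj_in S.iso (p := 3)
      ⟨1, by rw [pow_one]; exact orderOf_eq_prime S.pow3 S.ne1⟩ _ hxw hgxw
    have hcw : c * g * (e : K) * (c * g)⁻¹ = w := by
      rw [show c * g * (e : K) * (c * g)⁻¹ = c * (g * e * g⁻¹) * c⁻¹ by group, hge,
        Subgroup.mem_centralizer_singleton_iff.1 hc, mul_inv_cancel_right]
    obtain ⟨h, hh, hinv⟩ := S.exists_inverting_normalizer he1 (g := c * g)
      (Eq.trans (by group) hcx) hw hcw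
    refine ⟨⟨h, hh⟩, ?_⟩
    rw [← map_mul, S.proj_eq_one, ← S.mem_Γ]
    exact hinv
  -- a maximal subgroup containing the focal elements
  obtain ⟨M, hMne, hM2, hMN, hMf⟩ : ∃ M : Subgroup ↥(S.P : Subgroup K), M ≠ ⊤ ∧ gam _ 2 ≤ M ∧
      (∀ (g : N) (y : ↥(S.P : Subgroup K)), S.act g y * y⁻¹ ∈ M) ∧
      ∀ e : ↥(S.P : Subgroup K), ∀ g : K, ∀ w : ↥(S.P : Subgroup K),
        w ∈ gam ↥(S.P : Subgroup K) 2 → g * (e : K) * g⁻¹ = w → e ∈ M := by
    by_cases hex : ∃ e : ↥(S.P : Subgroup K), e ∉ twoStep ↥(S.P : Subgroup K) 2 ∧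
        ∃ h : N, S.proj (S.act h e) * S.proj e = 1
    · obtain ⟨e, he, h, hh⟩ := hex
      have hhe : S.proj (S.act h e) = (S.proj e)⁻¹ := eq_inv_of_mul_eq_one_left hh
      have hmem : ∀ z : ↥(S.P : Subgroup K), S.proj z ∈ Subgroup.zpowers (S.proj e) →
          z ∈ lineGroup _ e 2 := by
        intro z hz
        obtain ⟨i, hi⟩ := Subgroup.mem_zpowers_iff.1 hz
        have h1 : (e ^ i)⁻¹ * z ∈ gam ↥(S.P : Subgroup K) 2 := by
          rw [← S.proj_eq_one, map_mul, map_inv, map_zpow, hi, inv_mul_cancel]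
        have := mul_mem (zpow_mem (mem_lineGroup_self e 2) i) (gam_le_lineGroup e 2 h1)
        rwa [mul_inv_cancel_left] at this
      have hacts : ∀ g : N, S.proj (S.act g e) = S.proj e ∨
          S.proj (S.act g e) = (S.proj e)⁻¹ := by
        intro g
        rcases S.act_cases he g with h1 | ⟨v, hv, h1⟩
        · exact Or.inl h1
        refine Or.inr ?_
        have h2 : S.proj (S.act (h * g) e) = S.proj e * S.proj v := by
          set c := (e⁻¹ * v)⁻¹ * S.act g e with hc
          have hc2 : c ∈ gam ↥(S.P : Subgroup K) 2 := by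
            rw [← S.proj_eq_one, hc, map_mul, map_inv, map_mul, map_inv, h1, inv_mul_cancel]
          rw [act_mul, show S.act g e = e⁻¹ * v * c by rw [hc, mul_inv_cancel_left],
            map_mul (S.act h), map_mul (S.act h), map_inv (S.act h), map_mul, map_mul, map_inv,
            hhe, inv_inv, S.proj_act_twoStep h hv, S.proj_eq_one.2 (map_gam _ hc2), mul_one]
        rw [h1, S.proj_act_eq (h * g) hv h2, mul_one]
      refine ⟨lineGroup _ e 2, ?_, gam_le_lineGroup e 2, ?_, ?_⟩
      · intro htop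
        have h1 := S.maxCl.card_lineGroup (good_of_notMem S.maxCl he) (show 1 ≤ 2 by norm_num)
          (show 2 + 1 ≤ n by omega)
        rw [htop, Subgroup.card_top, S.maxCl.card_eq] at h1
        have := Nat.pow_right_injective (show 2 ≤ 3 by norm_num) h1
        omega
      · intro g y
        refine hmem _ ?_
        obtain ⟨k, -, w, hw, rfl⟩ := exists_decomp S.maxCl he y
        rw [map_mul, map_inv, map_mul (S.act g), map_mul, map_mul, map_pow, map_pow, map_pow,
          S.proj_act_twoStep g hw, mul_inv_rev, mul_assoc, mul_inv_cancel_left]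
        rcases hacts g with h1 | h1 <;> rw [h1]
        · rw [mul_inv_cancel]; exact one_mem _
        · exact mul_mem (pow_mem (inv_mem (Subgroup.mem_zpowers _)) k)
            (inv_mem (pow_mem (Subgroup.mem_zpowers _) k))
      · intro f g w hw hgf
        by_cases hf2 : f ∈ gam _ 2
        · exact gam_le_lineGroup e 2 hf2
        obtain ⟨hf1, h', hh'⟩ := hfused f hf2 g w hw hgf
        refine hmem _ ?_
        obtain ⟨k, hk, s, hs, rfl⟩ := exists_decomp S.maxCl he f
        rw [map_mul, map_pow]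
        suffices hs1 : S.proj s = 1 by
          rw [hs1, mul_one]; exact Subgroup.npow_mem_zpowers _ _
        rw [map_mul (S.act h'), map_mul, map_mul, map_pow, map_pow, map_pow,
          S.proj_act_twoStep h' hs] at hh'
        rcases hacts h' with h1 | h1
        · exfalso
          rw [h1, ← map_pow, ← map_mul, ← map_mul, S.proj_eq_one] at hh'
          have hk0 : k = 1 ∨ k = 2 := by
            rcases (show k = 0 ∨ k = 1 ∨ k = 2 by omega) with rfl | rfl | rfl
            · exact absurd (by rw [pow_zero, one_mul]; exact hs) hf1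
            · exact Or.inl rfl
            · exact Or.inr rfl
          haveI := twoStep_normal S.maxCl
          have h3 : e ^ k * e ^ k ∈ twoStep ↥(S.P : Subgroup K) 2 := by
            have h4' := gam_two_le_twoStep (G := ↥(S.P : Subgroup K)) (j := 2) (by norm_num) hh'
            rw [← QuotientGroup.eq_one_iff, QuotientGroup.mk_mul, QuotientGroup.mk_mul,
              (QuotientGroup.eq_one_iff s).2 hs, mul_one] at h4'
            exact (QuotientGroup.eq_one_iff _).1 h4'
          rw [← pow_add] at h3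
          have := dvd_of_pow_mem S.maxCl he h3
          omega
        · rw [h1, inv_pow] at hh'
          have h2 : S.proj s * S.proj s = 1 := by
            have h6 : (S.proj e ^ k)⁻¹ * S.proj s * (S.proj e ^ k * S.proj s) =
                (S.proj e ^ k)⁻¹ * S.proj e ^ k * (S.proj s * S.proj s) := by
              rw [mul_assoc, ← mul_assoc (S.proj s), ← map_pow, (S.proj_comm s (e ^ k)).eq,
                mul_assoc, mul_assoc]
            rwa [h6, inv_mul_cancel, one_mul] at hh'
          have h3 := S.proj_pow_three s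
          rwa [pow_succ, pow_two, h2, one_mul] at h3
    · push Not at hex
      have htriv : ∀ (g : N) (y : ↥(S.P : Subgroup K)), S.proj (S.act g y) = S.proj y := by
        intro g y
        obtain ⟨e, hgood⟩ := S.maxCl.exists_good
        have he : e ∉ twoStep ↥(S.P : Subgroup K) 2 := hgood.2 2 le_rfl (by omega)
        rcases S.act_cases he g with h1 | ⟨v, hv, h1⟩
        · obtain ⟨k, -, w, hw, rfl⟩ := exists_decomp S.maxCl he y
          rw [map_mul (S.act g), map_pow (S.act g), map_mul, map_mul, map_pow, map_pow, h1,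
            S.proj_act_twoStep g hw]
        · exfalso
          have hev : e * v ∉ twoStep ↥(S.P : Subgroup K) 2 := fun hc => he (by
            have := mul_mem hc (inv_mem hv)
            rwa [mul_inv_cancel_right] at this)
          refine hex (e * v) hev g ?_
          rw [map_mul (S.act g), map_mul, map_mul, h1, S.proj_act_twoStep g hv]
          calc (S.proj e)⁻¹ * S.proj v * S.proj v * (S.proj e * S.proj v)
              = (S.proj e)⁻¹ * (S.proj (v * v) * S.proj e) * S.proj v := by rw [map_mul]; group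
            _ = (S.proj e)⁻¹ * (S.proj e * S.proj (v * v)) * S.proj v := by
              rw [(S.proj_comm (v * v) e).eq]
            _ = S.proj v ^ 3 := by rw [map_mul, inv_mul_cancel_left, pow_succ, pow_two]
            _ = 1 := S.proj_pow_three v
      refine ⟨gam _ 2, ?_, le_rfl, fun g y => ?_, fun f g w hw hgf => ?_⟩
      · intro htop
        have h1 := S.maxCl.card_gam 2 le_rfl (by omega)
        rw [htop, Subgroup.card_top, S.maxCl.card_eq] at h1
        have := Nat.pow_right_injective (show 2 ≤ 3 by norm_num) h1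
        omega
      · rw [← S.proj_eq_one, map_mul, map_inv, htriv, mul_inv_cancel]
      · by_contra hf2
        obtain ⟨hf1, h', hh'⟩ := hfused f hf2 g w hw hgf
        exact hex f hf1 h' hh'
  refine hMne ?_
  rw [Subgroup.eq_top_iff']
  intro y
  have hPP : ⁅(S.P : Subgroup K), (S.P : Subgroup K)⁆ = S.Γ 2 := by
    rw [Γ, gam_succ le_rfl, gam_one, Subgroup.map_commutator, ← MonoidHom.range_eq_map,
      Subgroup.range_subtype]
  have h1 := CfsgLib.Transfer.mem_of_gruen_hyp S.P (M.map (S.P : Subgroup K).subtype)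
    (by rw [hPP]; exact Subgroup.map_mono hM2)
    (fun g hg u hu => ⟨_, hMN ⟨g⁻¹, inv_mem hg⟩ ⟨u, hu⟩, by
      show g⁻¹ * u * g⁻¹⁻¹ * u⁻¹ = _; rw [inv_inv]⟩)
    (fun g w hw hm => by
      rw [hPP] at hw
      obtain ⟨w, hw, rfl⟩ := hw
      exact ⟨⟨_, hm⟩, hMf ⟨_, hm⟩ g w hw (by simp [mul_assoc]), rfl⟩)
    y.2 (by rw [S.perf]; exact Subgroup.mem_top _)
  exact (Subgroup.mem_map_iff_mem (Subgroup.subtype_injective _)).1 h1

end Setup

end CfsgLib.IsolatedRankTwo
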