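import Cfsg.Agent.Eq.Def_CaseTheorems
import Cfsg.Prelude.Def_CaseTheorems
import Cfsg.Agent.PGroup.MaxClass.Power
import Mathlib

/-!
Two presented families of `p`-groups of rank two, `p` odd, `n ≥ 4`: some power map `y ↦ y ^ p ^ m` is
a non-trivial homomorphism into the group of any central element of order `p`.
-/

set_option autoImplicit false

open scoped Pointwise commutatorElement

namespace CfsgLib.IsolatedRankTwo

open CfsgLib.PGroup.MaxClass

variable {P : Type*} [Group P] {p : ℕ}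

/-- A multiplicative map with values of the generators in `W` has all values in `W`. -/
theorem hom_closure_mem {H : Type*} [Group H] (f : P →* H) {S : Set P}
    (hS : Subgroup.closure S = ⊤) (W : Subgroup H) (h : ∀ s ∈ S, f s ∈ W) (g : P) : f g ∈ W := by
  have hle : (⊤ : Subgroup P) ≤ W.comap f := by
    rw [← hS, Subgroup.closure_le]; exact h
  exact hle (Subgroup.mem_top g)

/-- In class two with commutators killed by an odd `N`, the `N`-th power is multiplicative. -/
theorem pow_odd_mul (hG : ∀ a b : P, ⁅a, b⁆ ∈ Subgroup.center P) {N : ℕ} (hN : Odd N)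
    (hc : ∀ a b : P, ⁅a, b⁆ ^ N = 1) (a b : P) : (a * b) ^ N = a ^ N * b ^ N :=
  CfsgLib.PGroup.mul_pow_of_odd' hG a b hN (hc a b)

/-- Commutators lie in a normal subgroup modulo which the generators commute. -/
theorem commutator_mem_of_gens {x y z : P} (hgen : Subgroup.closure ({x, y, z} : Set P) = ⊤)
    (N : Subgroup P) [N.Normal] (hxy : ⁅x, y⁆ ∈ N) (hxz : ⁅x, z⁆ ∈ N) (hyz : ⁅y, z⁆ ∈ N)
    (a b : P) : ⁅a, b⁆ ∈ N := by
  let π := QuotientGroup.mk' N
  have hq : ∀ u v : P, ⁅u, v⁆ ∈ N → Commute (π u) (π v) := fun u v h => by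
    rw [← commutatorElement_eq_one_iff_commute, ← map_commutatorElement]
    exact (QuotientGroup.eq_one_iff _).2 h
  have hg : ∀ s ∈ ({x, y, z} : Set P), ∀ g : P, Commute (π s) (π g) := by
    intro s hs g
    have h1 : π g ∈ Subgroup.centralizer ({π s} : Set (P ⧸ N)) := by
      refine hom_closure_mem π hgen _ (fun t ht => ?_) g
      rw [Subgroup.mem_centralizer_singleton_iff]
      simp only [Set.mem_insert_iff, Set.mem_singleton_iff] at hs ht
      rcases hs with rfl | rfl | rfl <;> rcases ht with rfl | rfl | rfl <;>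
        first
          | rfl
          | exact (hq _ _ hxy).eq | exact (hq _ _ hxy).symm.eq
          | exact (hq _ _ hxz).eq | exact (hq _ _ hxz).symm.eq
          | exact (hq _ _ hyz).eq | exact (hq _ _ hyz).symm.eq
    exact (Subgroup.mem_centralizer_singleton_iff.1 h1).symm
  rw [← QuotientGroup.eq_one_iff]
  show π _ = 1
  rw [map_commutatorElement, commutatorElement_eq_one_iff_commute]
  have h2 : π a ∈ Subgroup.centralizer ({π b} : Set (P ⧸ N)) := by
    refine hom_closure_mem π hgen _ (fun t ht => ?_) a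
    exact Subgroup.mem_centralizer_singleton_iff.2 (hg t ht b).eq
  exact Subgroup.mem_centralizer_singleton_iff.1 h2

/-- An element commuting with the generators is central. -/
theorem mem_center_of_gens {x y z w : P} (hgen : Subgroup.closure ({x, y, z} : Set P) = ⊤)
    (hx : Commute w x) (hy : Commute w y) (hz : Commute w z) : w ∈ Subgroup.center P := by
  rw [Subgroup.mem_center_iff]
  intro g
  have h : MonoidHom.id P g ∈ Subgroup.centralizer ({w} : Set P) :=
    hom_closure_mem _ hgen _ (fun s hs => by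
      rw [Subgroup.mem_centralizer_singleton_iff]
      simp only [Set.mem_insert_iff, Set.mem_singleton_iff] at hs
      rcases hs with rfl | rfl | rfl
      exacts [hx.symm.eq, hy.symm.eq, hz.symm.eq]) g
  exact Subgroup.mem_centralizer_singleton_iff.1 h

/-- The order of `z` in the presented groups. -/
theorem le_orderOf_of_gens [Finite P] [hp : Fact p.Prime] {n : ℕ} (hP : Nat.card P = p ^ n)
    {x y z : P} (hgen : Subgroup.closure ({x, y, z} : Set P) = ⊤) (hxp : x ^ p = 1)
    (hyp : y ^ p = 1) (hyz : y * z = z * y)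
    (hy : x⁻¹ * y * x ∈ Subgroup.closure ({y, z} : Set P))
    (hz : x⁻¹ * z * x ∈ Subgroup.closure ({y, z} : Set P)) : p ^ n ≤ p * (p * orderOf z) := by
  set A := Subgroup.closure ({y, z} : Set P)
  have hA : A ≤ (Subgroup.zpowers y ⊔ Subgroup.zpowers z) := by
    rw [Subgroup.closure_le]
    rintro s (rfl | rfl)
    exacts [Subgroup.mem_sup_left (Subgroup.mem_zpowers _),
      Subgroup.mem_sup_right (Subgroup.mem_zpowers _)]
  have hyN : Subgroup.zpowers y ≤ Subgroup.normalizer (Subgroup.zpowers z : Set P) := by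
    refine Subgroup.zpowers_le.2 (Subgroup.centralizer_le_normalizer _ ?_)
    rintro u ⟨i, rfl⟩
    exact (Commute.zpow_left (show Commute z y from hyz.symm) i).eq
  have hcA : Nat.card A ≤ p * orderOf z := by
    refine (Subgroup.card_le_of_le hA).trans ?_
    have h1 : Nat.card ↥(Subgroup.zpowers y ⊔ Subgroup.zpowers z) =
        Nat.card ↥((Subgroup.zpowers y : Set P) * (Subgroup.zpowers z : Set P)) := by
      rw [← Subgroup.coe_mul_of_left_le_normalizer_right _ _ hyN]; rfl
    rw [h1]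
    refine Set.natCard_mul_le.trans (Nat.mul_le_mul ?_ (Nat.card_zpowers z).le)
    rw [SetLike.coe_sort_coe, Nat.card_zpowers]
    exact Nat.le_of_dvd hp.out.pos (orderOf_dvd_of_pow_eq_one hyp)
  have hxN : Subgroup.zpowers x ≤ Subgroup.normalizer (A : Set P) := by
    refine Subgroup.zpowers_le.2 ?_
    rw [← inv_mem_iff]
    refine Subgroup.mem_normalizer_fintype fun u hu => ?_
    have hle : A ≤ A.comap (MulAut.conj x⁻¹).toMonoidHom := by
      rw [Subgroup.closure_le]
      rintro s (rfl | rfl)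
      · simpa using hy
      · simpa using hz
    simpa using hle hu
  have htop : (Subgroup.zpowers x ⊔ A) = ⊤ := by
    rw [← top_le_iff, ← hgen, Subgroup.closure_le]
    rintro s (rfl | rfl | rfl)
    exacts [Subgroup.mem_sup_left (Subgroup.mem_zpowers _),
      Subgroup.mem_sup_right (Subgroup.subset_closure (by simp)),
      Subgroup.mem_sup_right (Subgroup.subset_closure (by simp))]
  rw [← hP, ← Subgroup.card_top, ← htop]
  have h1 : Nat.card ↥(Subgroup.zpowers x ⊔ A) =
      Nat.card ↥((Subgroup.zpowers x : Set P) * (A : Set P)) := by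
    rw [← Subgroup.coe_mul_of_left_le_normalizer_right _ _ hxN]; rfl
  rw [h1]
  refine Set.natCard_mul_le.trans (Nat.mul_le_mul ?_ hcA)
  rw [SetLike.coe_sort_coe, Nat.card_zpowers]
  exact Nat.le_of_dvd hp.out.pos (orderOf_dvd_of_pow_eq_one hxp)

/-- A central element of order `p` lies in the group of any other one. -/
theorem mem_zpowers_of_rank [Finite P] [hp : Fact p.Prime] (hrk : Cfsg.PRankLE p 2 P) {w c X : P}
    (hw : w ∈ Subgroup.center P) (hwp : w ^ p = 1) (hw1 : w ≠ 1) (hc : c ∈ Subgroup.center P)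
    (hcp : c ^ p = 1) (hXp : X ^ p = 1) (hX : X ∉ Subgroup.center P) : c ∈ Subgroup.zpowers w := by
  by_contra hcw
  set A : Subgroup P := Subgroup.closure {w, c, X}
  have hcomm : ∀ a ∈ ({w, c, X} : Set P), ∀ b ∈ ({w, c, X} : Set P), a * b = b * a := by
    rintro a (rfl | rfl | rfl) b (rfl | rfl | rfl) <;>
      first
        | rfl
        | exact (Subgroup.mem_center_iff.1 hw _).symm
        | exact (Subgroup.mem_center_iff.1 hc _).symm
        | exact Subgroup.mem_center_iff.1 hw _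
        | exact Subgroup.mem_center_iff.1 hc _
  haveI hA : IsMulCommutative A := Subgroup.isMulCommutative_closure fun a ha b hb => hcomm a ha b hb
  have hexp : ∀ a ∈ A, a ^ p = 1 := by
    intro a ha
    induction ha using Subgroup.closure_induction with
    | mem s hs =>
      rcases hs with rfl | rfl | rfl
      exacts [hwp, hcp, hXp]
    | one => exact one_pow p
    | mul a b ha hb iha ihb =>
      rw [(show Commute a b from congrArg Subtype.val (hA.is_comm.comm (⟨a, ha⟩ : A) ⟨b, hb⟩)).mul_pow,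
        iha, ihb, one_mul]
    | inv a _ iha => rw [inv_pow, iha, inv_one]
  have hW : Nat.card (Subgroup.zpowers w) = p := by
    rw [Nat.card_zpowers, orderOf_eq_prime hwp hw1]
  have step : ∀ {B C : Subgroup P}, B ≤ C → C ≤ A → B ≠ C → p * Nat.card B ≤ Nat.card C := by
    intro B C hBC hCA hne
    have hApg : IsPGroup p A := fun a => ⟨1, Subtype.ext (by simpa using hexp a a.2)⟩
    obtain ⟨b, hb⟩ := IsPGroup.iff_card.1 (hApg.to_le (hBC.trans hCA))
    obtain ⟨k, hk⟩ := IsPGroup.iff_card.1 (hApg.to_le hCA)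
    have hlt : Nat.card B < Nat.card C := lt_of_le_of_ne (Subgroup.card_le_of_le hBC)
      fun he => hne (Subgroup.eq_of_le_of_card_ge hBC he.ge)
    rw [hb, hk, Nat.pow_lt_pow_iff_right hp.out.one_lt] at hlt
    rw [hb, hk, ← pow_succ']
    exact Nat.pow_le_pow_right hp.out.pos (by omega)
  set B : Subgroup P := Subgroup.closure {w, c}
  have hBA : B ≤ A := Subgroup.closure_mono (by
    rintro s (rfl | rfl) <;> simp)
  have hBZ : B ≤ Subgroup.center P := (Subgroup.closure_le _).2 (by rintro s (rfl | rfl) <;> assumption)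
  have hwB : Subgroup.zpowers w ≤ B := Subgroup.zpowers_le.2 (Subgroup.subset_closure (by simp))
  have h1 := step hwB hBA fun h => hcw (h ▸ Subgroup.subset_closure (by simp))
  have h2 := step hBA le_rfl fun h => hX (hBZ (h ▸ Subgroup.subset_closure (by simp)))
  have h3 := hrk A hA hexp
  rw [hW] at h1
  have h4 : p * (p * p) ≤ p ^ 2 := (Nat.mul_le_mul_left p h1).trans (h2.trans h3)
  have := hp.out.two_le
  nlinarith

section Main

variable [Finite P] [hp : Fact p.Prime] {n : ℕ} {c : P}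

/-- The common conclusion: a non-trivial power homomorphism into `⟨c⟩`. -/
theorem finish {x y z : P} (hgen : Subgroup.closure ({x, y, z} : Set P) = ⊤) (hrk : Cfsg.PRankLE p 2 P)
    (hc : c ∈ Subgroup.center P) (hcp : c ^ p = 1) (hc1 : c ≠ 1) {m : ℕ} (hm : 1 ≤ m)
    (hmul : ∀ a b : P, (a * b) ^ p ^ m = a ^ p ^ m * b ^ p ^ m) (hxp : x ^ p = 1) (hyp : y ^ p = 1)
    (hw : z ^ p ^ m ∈ Subgroup.center P) (hwp : (z ^ p ^ m) ^ p = 1) (hw1 : z ^ p ^ m ≠ 1)
    (hX : x ∉ Subgroup.center P) :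
    ∃ m : ℕ, (∀ a b : P, (a * b) ^ p ^ m = a ^ p ^ m * b ^ p ^ m) ∧
      (∀ a : P, a ^ p ^ m ∈ Subgroup.zpowers c) ∧ ∃ a : P, a ^ p ^ m ≠ 1 := by
  refine ⟨m, hmul, fun a => ?_, z, hw1⟩
  have hle : Subgroup.zpowers (z ^ p ^ m) ≤ Subgroup.zpowers c := by
    refine le_of_eq (Subgroup.eq_of_le_of_card_ge (Subgroup.zpowers_le.2
      (mem_zpowers_of_rank hrk hw hwp hw1 hc hcp hxp hX)) ?_).symm
    rw [Nat.card_zpowers, Nat.card_zpowers, orderOf_eq_prime hwp hw1, orderOf_eq_prime hcp hc1]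
  refine hle (hom_closure_mem (MonoidHom.mk' (fun a : P => a ^ p ^ m) hmul) hgen _ ?_ a)
  obtain ⟨k, rfl⟩ : ∃ k, m = k + 1 := ⟨m - 1, by omega⟩
  rintro s (rfl | rfl | rfl)
  · simp [pow_succ', pow_mul, hxp]
  · simp [pow_succ', pow_mul, hyp]
  · exact Subgroup.mem_zpowers _

/-- The central product family. -/
theorem exists_powerHom_central (hp2 : p ≠ 2) (hP : Nat.card P = p ^ n) (hn : 4 ≤ n)
    (hrk : Cfsg.PRankLE p 2 P) {x y z : P} (hgen : Subgroup.closure ({x, y, z} : Set P) = ⊤)
    (hxp : x ^ p = 1) (hyp : y ^ p = 1) (hzp : z ^ p ^ (n - 2) = 1) (hxz : x * z = z * x)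
    (hyz : y * z = z * y) (hconj : x⁻¹ * y * x = y * z ^ p ^ (n - 3))
    (hc : c ∈ Subgroup.center P) (hcp : c ^ p = 1) (hc1 : c ≠ 1) :
    ∃ m : ℕ, (∀ a b : P, (a * b) ^ p ^ m = a ^ p ^ m * b ^ p ^ m) ∧
      (∀ a : P, a ^ p ^ m ∈ Subgroup.zpowers c) ∧ ∃ a : P, a ^ p ^ m ≠ 1 := by
  set w := z ^ p ^ (n - 3) with hw
  have hwp : w ^ p = 1 := by
    rw [hw, ← pow_mul, ← pow_succ, show n - 3 + 1 = n - 2 by omega, hzp]
  have hord := le_orderOf_of_gens hP hgen hxp hyp hyz
    (by rw [hconj]; exact mul_mem (Subgroup.subset_closure (by simp))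
          (pow_mem (Subgroup.subset_closure (by simp)) _))
    (by rw [mul_assoc, ← hxz, inv_mul_cancel_left]; exact Subgroup.subset_closure (by simp))
  have hw1 : w ≠ 1 := by
    intro h
    have h1 : orderOf z ≤ p ^ (n - 3) :=
      Nat.le_of_dvd (pow_pos hp.out.pos _) (orderOf_dvd_of_pow_eq_one h)
    have h2 := hord.trans (Nat.mul_le_mul_left p (Nat.mul_le_mul_left p h1))
    rw [← pow_succ', ← pow_succ', Nat.pow_le_pow_iff_right hp.out.one_lt] at h2
    omega
  have hwc : w ∈ Subgroup.center P := mem_center_of_gens hgen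
    ((show Commute z x from hxz.symm).pow_left _) ((show Commute z y from hyz.symm).pow_left _)
    ((Commute.refl z).pow_left _)
  have hX : x ∉ Subgroup.center P := by
    intro h
    rw [mul_assoc, ← show x * y = y * x from (Subgroup.mem_center_iff.1 h y).symm,
      inv_mul_cancel_left, left_eq_mul] at hconj
    exact hw1 hconj
  haveI : (Subgroup.zpowers w).Normal := ⟨fun u hu g => by
    rw [Subgroup.mem_center_iff.1 ((Subgroup.zpowers_le.2 hwc) hu) g, mul_inv_cancel_right]
    exact hu⟩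
  have hcomm : ∀ a b : P, ⁅a, b⁆ ∈ Subgroup.zpowers w := by
    refine commutator_mem_of_gens hgen _ ?_ ?_ ?_
    · have h1 : x * y * x⁻¹ = y * w⁻¹ := by
        have h2 : x * (y * w) * x⁻¹ = y := by rw [← hconj]; group
        rw [show x * (y * w) * x⁻¹ = x * y * x⁻¹ * w by
          rw [← mul_assoc x y w, mul_assoc (x * y) w, ← Subgroup.mem_center_iff.1 hwc x⁻¹,
            ← mul_assoc]] at h2
        exact eq_mul_inv_of_mul_eq h2
      rw [commutatorElement_def, h1, Subgroup.mem_center_iff.1 (inv_mem hwc) y, mul_inv_cancel_right]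
      exact inv_mem (Subgroup.mem_zpowers w)
    · rw [commutatorElement_eq_one_iff_mul_comm.2 hxz]; exact one_mem _
    · rw [commutatorElement_eq_one_iff_mul_comm.2 hyz]; exact one_mem _
  refine finish hgen hrk hc hcp hc1 (show 1 ≤ n - 3 by omega) ?_ hxp hyp hwc hwp hw1 hX
  refine pow_odd_mul (fun a b => Subgroup.zpowers_le.2 hwc (hcomm a b))
    ((hp.out.odd_of_ne_two hp2).pow) fun a b => ?_
  obtain ⟨i, hi⟩ := Subgroup.mem_zpowers_iff.1 (hcomm a b)
  obtain ⟨k, hk⟩ : ∃ k, n - 3 = k + 1 := ⟨n - 4, by omega⟩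
  rw [← hi, ← zpow_natCast (w ^ i), ← zpow_mul, mul_comm, zpow_mul, zpow_natCast, hk, pow_succ',
    pow_mul, hwp, one_pow, one_zpow]

/-- The family with `x⁻¹ z x = y z`, of class three. -/
theorem exists_powerHom_three (hp2 : p ≠ 2) (hP : Nat.card P = p ^ n) (hn : 4 ≤ n)
    (hrk : Cfsg.PRankLE p 2 P) {s : ℕ} {x y z : P} (hs : s = 1 ∨ ¬ IsSquare (s : ZMod p))
    (hgen : Subgroup.closure ({x, y, z} : Set P) = ⊤)
    (hxp : x ^ p = 1) (hyp : y ^ p = 1) (hzp : z ^ p ^ (n - 2) = 1) (hyz : y * z = z * y)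
    (hconj : x⁻¹ * y * x = y * z ^ (s * p ^ (n - 3))) (hconjz : x⁻¹ * z * x = y * z)
    (hc : c ∈ Subgroup.center P) (hcp : c ^ p = 1) (hc1 : c ≠ 1) :
    (p = 3 ∧ n = 4 ∧ Subgroup.lowerCentralSeries (⊤ : Subgroup P) (n - 2) ≠ ⊥) ∨
      ∃ m : ℕ, (∀ a b : P, (a * b) ^ p ^ m = a ^ p ^ m * b ^ p ^ m) ∧
        (∀ a : P, a ^ p ^ m ∈ Subgroup.zpowers c) ∧ ∃ a : P, a ^ p ^ m ≠ 1 := by
  set w := z ^ p ^ (n - 3) with hw
  set v := z ^ (s * p ^ (n - 3)) with hv
  have hvw : v = w ^ s := by rw [hv, hw, mul_comm s, pow_mul]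
  have hwp : w ^ p = 1 := by
    rw [hw, ← pow_mul, ← pow_succ, show n - 3 + 1 = n - 2 by omega, hzp]
  have hord := le_orderOf_of_gens hP hgen hxp hyp hyz
    (by rw [hconj]; exact mul_mem (Subgroup.subset_closure (by simp))
          (pow_mem (Subgroup.subset_closure (by simp)) _))
    (by rw [hconjz]; exact mul_mem (Subgroup.subset_closure (by simp))
          (Subgroup.subset_closure (by simp)))
  have hw1 : w ≠ 1 := by
    intro h
    have h1 : orderOf z ≤ p ^ (n - 3) :=
      Nat.le_of_dvd (pow_pos hp.out.pos _) (orderOf_dvd_of_pow_eq_one h)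
    have h2 := hord.trans (Nat.mul_le_mul_left p (Nat.mul_le_mul_left p h1))
    rw [← pow_succ', ← pow_succ', Nat.pow_le_pow_iff_right hp.out.one_lt] at h2
    omega
  have hsdvd : ¬ p ∣ s := by
    intro h
    rcases hs with rfl | hs
    · exact hp.out.one_lt.ne' (Nat.dvd_one.1 h)
    · exact hs (((ZMod.natCast_eq_zero_iff _ _).2 h) ▸ IsSquare.zero)
  have hwx : Commute w x := by
    have hyzc : Commute y z := hyz
    have h1 : x⁻¹ * w * x⁻¹⁻¹ = w := by
      rw [hw, ← conj_pow, inv_inv, hconjz, hyzc.mul_pow]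
      obtain ⟨k, hk⟩ : ∃ k, n - 3 = k + 1 := ⟨n - 4, by omega⟩
      rw [hk, pow_succ', pow_mul y, hyp, one_pow, one_mul]
    rw [inv_inv] at h1
    calc w * x = x * (x⁻¹ * w * x) := by group
      _ = x * w := by rw [h1]
  have hwc : w ∈ Subgroup.center P := mem_center_of_gens hgen hwx
    ((show Commute z y from hyz.symm).pow_left _) ((Commute.refl z).pow_left _)
  have hvc : v ∈ Subgroup.center P := hvw ▸ pow_mem hwc s
  have hv1 : v ≠ 1 := fun h => hsdvd (by
    rw [hvw] at h
    exact (orderOf_eq_prime hwp hw1) ▸ orderOf_dvd_of_pow_eq_one h)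
  have hvW : v ∈ Subgroup.zpowers w := hvw ▸ pow_mem (Subgroup.mem_zpowers w) s
  have hX : x ∉ Subgroup.center P := by
    intro h
    rw [mul_assoc, ← show x * y = y * x from (Subgroup.mem_center_iff.1 h y).symm,
      inv_mul_cancel_left, left_eq_mul] at hconj
    exact hv1 hconj
  -- commutators of the generators
  have hcxy : ⁅x, y⁆ = v⁻¹ := by
    have h1 : x * y * x⁻¹ = v⁻¹ * y := by
      have h2 : y = x * (y * v) * x⁻¹ := by rw [← hconj]; group
      rw [show x * (y * v) * x⁻¹ = v * (x * y * x⁻¹) by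
        rw [Subgroup.mem_center_iff.1 hvc y, ← mul_assoc x v y,
          Subgroup.mem_center_iff.1 hvc x]; group] at h2
      conv_rhs => rw [h2]
      group
    rw [commutatorElement_def, h1, mul_inv_cancel_right]
  have hcxz : ⁅z, x⁆ = v⁻¹ * y := by
    have h1 : x * y * x⁻¹ = v⁻¹ * y := by
      rw [← hcxy, commutatorElement_def, inv_mul_cancel_right]
    have h2 : x * z * x⁻¹ = x * y⁻¹ * x⁻¹ * z := by
      have : z = x * (y * z) * x⁻¹ := by rw [← hconjz]; group
      calc x * z * x⁻¹ = x * y⁻¹ * x⁻¹ * (x * (y * z) * x⁻¹) := by group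
        _ = _ := by rw [← this]
    rw [commutatorElement_def, show z * x * z⁻¹ * x⁻¹ = z * (x * z * x⁻¹)⁻¹ by group, h2,
      show (x * y⁻¹ * x⁻¹ * z)⁻¹ = z⁻¹ * (x * y * x⁻¹) by group, mul_inv_cancel_left, h1]
  have hlcs : Subgroup.lowerCentralSeries (⊤ : Subgroup P) 2 ≠ ⊥ := by
    intro h
    have h1 : ⁅z, x⁆ ∈ Subgroup.lowerCentralSeries (⊤ : Subgroup P) 1 := by
      rw [Subgroup.lowerCentralSeries_succ, Subgroup.lowerCentralSeries_zero]
      exact Subgroup.commutator_mem_commutator (Subgroup.mem_top z) (Subgroup.mem_top x)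
    have h2 : ⁅⁅z, x⁆, x⁆ ∈ Subgroup.lowerCentralSeries (⊤ : Subgroup P) 2 := by
      rw [Subgroup.lowerCentralSeries_succ]
      exact Subgroup.commutator_mem_commutator h1 (Subgroup.mem_top x)
    rw [h, Subgroup.mem_bot, hcxz, commutatorElement_eq_one_iff_mul_comm] at h2
    have h3 : Commute y x := by
      have h4 : Commute v x := (Subgroup.mem_center_iff.1 hvc x).symm
      have h5 := h4.mul_left (show Commute (v⁻¹ * y) x from h2)
      rwa [mul_inv_cancel_left] at h5
    rw [mul_assoc, h3.eq, inv_mul_cancel_left, left_eq_mul] at hconj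
    exact hv1 hconj
  rcases eq_or_lt_of_le hn with hn4 | hn5
  · by_cases hp3 : p = 3
    · exact Or.inl ⟨hp3, hn4.symm, by rw [← hn4]; exact hlcs⟩
    -- order `p ^ 4`, maximal class, `p ≥ 5`
    refine Or.inr ?_
    subst hn4
    have hP4 := isMaxCl_of_ne_bot hP le_rfl hlcs
    obtain ⟨e, he⟩ := hP4.exists_good
    have hp5 : 4 ≤ p := by
      have := hp.out.two_le
      omega
    refine finish hgen hrk hc hcp hc1 (show 1 ≤ 1 from le_rfl) (fun a b => ?_) hxp hyp
      (by simpa [hw] using hwc) (by simpa [hw] using hwp) (by simpa [hw] using hw1) hX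
    rw [pow_one]
    have h1 := hP4.mul_pow_mem (fun i hi z hz => hP4.pow_mem_gam he hi hz) (b := 2) le_rfl
      (comm_mem_gam_succ le_rfl (gam_one (G := P) ▸ Subgroup.mem_top a) b)
    exact (inv_mul_eq_one.1 (hP4.mem_gam_one (show 4 ≤ 2 + p - 2 by omega) h1)).symm
  refine Or.inr ?_
  set W := Subgroup.zpowers w
  haveI : W.Normal := ⟨fun u hu g => by
    rw [Subgroup.mem_center_iff.1 ((Subgroup.zpowers_le.2 hwc) hu) g, mul_inv_cancel_right]
    exact hu⟩
  let π := QuotientGroup.mk' W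
  have hgenQ : Subgroup.closure ({π x, π y, π z} : Set (P ⧸ W)) = ⊤ := by
    have h1 := congrArg (Subgroup.map π) hgen
    rw [MonoidHom.map_closure, Subgroup.map_top_of_surjective π (QuotientGroup.mk'_surjective W),
      Set.image_insert_eq, Set.image_insert_eq, Set.image_singleton] at h1
    exact h1
  have hyQ : π y ∈ Subgroup.center (P ⧸ W) := by
    refine mem_center_of_gens hgenQ ?_ (Commute.refl _) ((show Commute y z from hyz).map π)
    rw [← commutatorElement_eq_one_iff_commute, ← map_commutatorElement, ← commutatorElement_inv,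
      hcxy, inv_inv]
    exact (QuotientGroup.eq_one_iff _).2 hvW
  haveI : (Subgroup.zpowers (π y)).Normal := ⟨fun u hu g => by
    rw [Subgroup.mem_center_iff.1 ((Subgroup.zpowers_le.2 hyQ) hu) g, mul_inv_cancel_right]
    exact hu⟩
  have hyp' : π y ^ p = 1 := by rw [← map_pow, hyp, map_one]
  have hcQ : ∀ a b : P ⧸ W, ⁅a, b⁆ ∈ Subgroup.zpowers (π y) := by
    refine commutator_mem_of_gens hgenQ _ ?_ ?_ ?_
    · rw [← map_commutatorElement, hcxy,
        show π v⁻¹ = 1 from (QuotientGroup.eq_one_iff _).2 (inv_mem hvW)]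
      exact one_mem _
    · rw [← map_commutatorElement, ← commutatorElement_inv, hcxz, map_inv, map_mul,
        show π v⁻¹ = 1 from (QuotientGroup.eq_one_iff _).2 (inv_mem hvW), one_mul]
      exact inv_mem (Subgroup.mem_zpowers _)
    · rw [← map_commutatorElement, commutatorElement_eq_one_iff_mul_comm.2 hyz, map_one]
      exact one_mem _
  have hmulQ : ∀ a b : P ⧸ W, (a * b) ^ p = a ^ p * b ^ p :=
    pow_odd_mul (fun a b => Subgroup.zpowers_le.2 hyQ (hcQ a b)) (hp.out.odd_of_ne_two hp2)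
      fun a b => by
        obtain ⟨i, hi⟩ := Subgroup.mem_zpowers_iff.1 (hcQ a b)
        rw [← hi, ← zpow_natCast, ← zpow_mul, mul_comm, zpow_mul, zpow_natCast, hyp', one_zpow]
  have hzc : z ^ p ∈ Subgroup.center P := by
    refine mem_center_of_gens hgen ?_ ((show Commute z y from hyz.symm).pow_left _)
      ((Commute.refl z).pow_left _)
    have h1 : x⁻¹ * z ^ p * x⁻¹⁻¹ = z ^ p := by
      rw [← conj_pow, inv_inv, hconjz, (show Commute y z from hyz).mul_pow, hyp, one_mul]
    rw [inv_inv] at h1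
    calc z ^ p * x = x * (x⁻¹ * z ^ p * x) := by group
      _ = x * z ^ p := by rw [h1]
  have hWC : W ≤ Subgroup.center P := Subgroup.zpowers_le.2 hwc
  have hpc : ∀ a : P, a ^ p ∈ Subgroup.center P := by
    intro a
    have h1 : π (a ^ p) ∈ (Subgroup.center P).map π := by
      rw [map_pow]
      refine hom_closure_mem (MonoidHom.mk' (fun u : P ⧸ W => u ^ p) hmulQ) hgenQ _ ?_ (π a)
      rintro u (rfl | rfl | rfl)
      · simp [← map_pow, hxp]
      · simp [← map_pow, hyp]
      · exact ⟨z ^ p, hzc, map_pow π z p⟩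
    obtain ⟨u, hu, hua⟩ := h1
    have h2 := QuotientGroup.eq.1 (show (u : P ⧸ W) = (a ^ p : P) from hua)
    have := mul_mem hu (hWC h2)
    rwa [mul_inv_cancel_left] at this
  refine finish hgen hrk hc hcp hc1 (show 1 ≤ n - 3 by omega) (fun a b => ?_) hxp hyp hwc hwp hw1 hX
  obtain ⟨k, hk⟩ : ∃ k, n - 3 = k + 2 := ⟨n - 5, by omega⟩
  have hu : (a ^ p * b ^ p)⁻¹ * (a * b) ^ p ∈ W := by
    rw [← QuotientGroup.eq_one_iff]
    show π _ = 1
    rw [map_mul, map_inv, map_mul, map_pow, map_pow, map_pow, map_mul, hmulQ, inv_mul_cancel]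
  obtain ⟨i, hi⟩ := Subgroup.mem_zpowers_iff.1 hu
  have hab : (a * b) ^ p = a ^ p * b ^ p * w ^ i := by rw [hi]; group
  have hwk : (w ^ i) ^ p ^ (k + 1) = 1 := by
    rw [← zpow_natCast (w ^ i), ← zpow_mul, mul_comm, zpow_mul, zpow_natCast, pow_succ', pow_mul,
      hwp, one_pow, one_zpow]
  rw [hk, pow_succ', pow_mul, pow_mul, pow_mul, hab,
    (show Commute (a ^ p * b ^ p) (w ^ i) from
      Subgroup.mem_center_iff.1 (zpow_mem hwc i) _).mul_pow, hwk, mul_one,
    (show Commute (a ^ p) (b ^ p) from Subgroup.mem_center_iff.1 (hpc b) _).mul_pow]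

end Main

end CfsgLib.IsolatedRankTwo
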