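import Cfsg.Agent.IsolatedRankTwo.Basic
import Cfsg.Agent.LocalP.RankOne
import Cfsg.Agent.Cores.GenFitting
import Cfsg.Agent.Cores.Layer
import Cfsg.Agent.Constrained.Fitting
import Cfsg.Agent.LocalCharP.NoComponent
import Cfsg.Agent.Eq.Def_Local

/-!
A group of `p`-rank at most two with trivial `p'`-core and a non-central isolated element of order `p`
has a simple generalised Fitting subgroup.
-/

set_option autoImplicit false

open scoped commutatorElement

namespace CfsgLib.IsolatedRankTwo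

variable {G : Type*} [Group G] [Finite G] {p : ℕ} [Fact p.Prime]

omit [Finite G] in
/-- A conjugate of an isolated element is isolated. -/
theorem isolated_conjugate {x : G} (hiso : Cfsg.IsIsolated x) (c : G) :
    Cfsg.IsIsolated (c * x * c⁻¹) := by
  intro h hh
  have h1 := hiso (c⁻¹ * h * c) (by
    have h2 := (commute_iff_eq _ _).1 hh
    show x * (c⁻¹ * h * c * x * (c⁻¹ * h * c)⁻¹) = c⁻¹ * h * c * x * (c⁻¹ * h * c)⁻¹ * x
    calc x * (c⁻¹ * h * c * x * (c⁻¹ * h * c)⁻¹)
        = c⁻¹ * ((c * x * c⁻¹) * (h * (c * x * c⁻¹) * h⁻¹)) * c := by group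
      _ = c⁻¹ * ((h * (c * x * c⁻¹) * h⁻¹) * (c * x * c⁻¹)) * c := by rw [h2]
      _ = _ := by group)
  calc h * (c * x * c⁻¹) * h⁻¹ = c * (c⁻¹ * h * c * x * (c⁻¹ * h * c)⁻¹) * c⁻¹ := by group
    _ = c * x * c⁻¹ := by rw [h1]

/-- In `p`-rank two, three commuting elements of order `p`: the third is a product of powers of the
first two independent ones. -/
theorem exists_zpow_mul_zpow (hrk : Cfsg.PRankLE p 2 G) {a b c : G} (hap : a ^ p = 1)
    (hbp : b ^ p = 1) (hcp : c ^ p = 1) (ha : a ≠ 1) (hb : b ∉ Subgroup.zpowers a)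
    (hab : Commute a b) (hac : Commute a c) (hbc : Commute b c) :
    ∃ i j : ℤ, c = a ^ i * b ^ j := by
  have hp : p.Prime := Fact.out
  set B := Subgroup.zpowers a ⊔ Subgroup.zpowers b with hB
  have hN : Subgroup.zpowers a ≤ Subgroup.normalizer (Subgroup.zpowers b : Set G) := by
    refine Subgroup.zpowers_le.2 (Subgroup.centralizer_le_normalizer _ ?_)
    rintro u ⟨i, rfl⟩
    exact (hab.symm.zpow_left i).eq
  suffices hcB : c ∈ B by
    rw [← SetLike.mem_coe, hB, Subgroup.coe_mul_of_left_le_normalizer_right _ _ hN] at hcB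
    obtain ⟨u, hu, v, hv, rfl⟩ := hcB
    obtain ⟨i, rfl⟩ := Subgroup.mem_zpowers_iff.1 hu
    obtain ⟨j, rfl⟩ := Subgroup.mem_zpowers_iff.1 hv
    exact ⟨i, j, rfl⟩
  by_contra hcB
  set A := Subgroup.closure ({a, b, c} : Set G)
  have hcomm : ∀ u ∈ ({a, b, c} : Set G), ∀ v ∈ ({a, b, c} : Set G), u * v = v * u := by
    rintro u (rfl | rfl | rfl) v (rfl | rfl | rfl) <;>
      first
        | rfl
        | exact hab.eq | exact hab.symm.eq | exact hac.eq | exact hac.symm.eq
        | exact hbc.eq | exact hbc.symm.eq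
  haveI hAc : IsMulCommutative A := Subgroup.isMulCommutative_closure fun u hu v hv => hcomm u hu v hv
  have hexp : ∀ u ∈ A, u ^ p = 1 := by
    intro u hu
    induction hu using Subgroup.closure_induction with
    | mem s hs =>
      rcases hs with rfl | rfl | rfl
      exacts [hap, hbp, hcp]
    | one => exact one_pow p
    | mul u v hu hv ihu ihv =>
      rw [(show Commute u v from congrArg Subtype.val (hAc.is_comm.comm (⟨u, hu⟩ : A) ⟨v, hv⟩)).mul_pow,
        ihu, ihv, one_mul]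
    | inv u _ ihu => rw [inv_pow, ihu, inv_one]
  have hApg : IsPGroup p A := fun u => ⟨1, Subtype.ext (by simpa using hexp u u.2)⟩
  have step : ∀ {B C : Subgroup G}, B ≤ C → C ≤ A → B ≠ C → p * Nat.card B ≤ Nat.card C := by
    intro B C hBC hCA hne
    obtain ⟨r, hr⟩ := IsPGroup.iff_card.1 (hApg.to_le (hBC.trans hCA))
    obtain ⟨k, hk⟩ := IsPGroup.iff_card.1 (hApg.to_le hCA)
    have hlt : Nat.card B < Nat.card C := lt_of_le_of_ne (Subgroup.card_le_of_le hBC)
      fun he => hne (Subgroup.eq_of_le_of_card_ge hBC he.ge)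
    rw [hr, hk, Nat.pow_lt_pow_iff_right hp.one_lt] at hlt
    rw [hr, hk, ← pow_succ']
    exact Nat.pow_le_pow_right hp.pos (by omega)
  have haA : Subgroup.zpowers a ≤ A := Subgroup.zpowers_le.2 (Subgroup.subset_closure (by simp))
  have hBA : B ≤ A := sup_le haA (Subgroup.zpowers_le.2 (Subgroup.subset_closure (by simp)))
  have h1 := step (le_sup_left : Subgroup.zpowers a ≤ B) hBA
    fun h => hb (h ▸ Subgroup.mem_sup_right (Subgroup.mem_zpowers b))
  have h2 := step hBA le_rfl fun h => hcB (h ▸ Subgroup.subset_closure (by simp))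
  have h3 := hrk A hAc hexp
  rw [Nat.card_zpowers, orderOf_eq_prime hap ha] at h1
  have h4 : p * (p * p) ≤ p ^ 2 := (Nat.mul_le_mul_left p h1).trans (h2.trans h3)
  have := hp.two_le
  nlinarith

variable {x : G}

/-- A component has a non-central element of order `p` in each Sylow subgroup. -/
theorem exists_noncentral_of_component (hp2 : p ≠ 2) {L : Subgroup G} (hL : Cfsg.IsComponent L)
    (hdvd : p ∣ Nat.card L) (Q : Sylow p ↥L) :
    ∃ a ∈ (Q : Subgroup ↥L).map L.subtype, a ^ p = 1 ∧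
      ∃ l ∈ L, a * l ≠ l * a := by
  by_contra hcon
  push Not at hcon
  refine commutator_ne_top_of_fusion (x := (1 : ↥L)) hp2 Q hdvd
    (fun g _ => by simp) (one_mem _) (one_pow p) (fun e he hep g _ => ?_) hL.2.1.commutator_eq_top
  have h := hcon (e : G) ⟨e, he, rfl⟩ (by rw [← SubmonoidClass.coe_pow, hep, OneMemClass.coe_one])
    g g.2
  have : g * e * g⁻¹ = e := by
    rw [mul_inv_eq_iff_eq_mul]
    exact Subtype.ext h.symm
  rw [this, mul_inv_cancel]
  exact one_mem _

/-- Next to a component, an element of order `p` centralising it generates the isolated element. -/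
theorem mem_zpowers_of_commute_component (hp2 : p ≠ 2) (hrk : Cfsg.PRankLE p 2 G)
    (hiso : Cfsg.IsIsolated x) (hxp : x ^ p = 1) {L : Subgroup G} (hL : Cfsg.IsComponent L)
    (hdvd : p ∣ Nat.card L) (Q : Sylow p ↥L) (T : Sylow p G)
    (hQT : (Q : Subgroup ↥L).map L.subtype ≤ (T : Subgroup G)) (hxT : x ∈ (T : Subgroup G)) {z : G}
    (hzT : z ∈ (T : Subgroup G)) (hzp : z ^ p = 1) (hz1 : z ≠ 1)
    (hzL : ∀ l ∈ L, z * l = l * z) : x ∈ Subgroup.zpowers z := by
  have hp : p.Prime := Fact.out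
  obtain ⟨a, haQ, hap, l, hl, hal⟩ := exists_noncentral_of_component hp2 hL hdvd Q
  have haL : a ∈ L := Subgroup.map_subtype_le _ haQ
  have ha1 : a ≠ 1 := fun h => hal (by rw [h, one_mul, mul_one])
  have hcT : ∀ {u : G}, u ∈ (T : Subgroup G) → Commute x u := fun hu =>
    CfsgLib.LocalP.isolated_commute_of_mem hiso T.2 hxT _ hu
  have hza : z ∉ Subgroup.zpowers a := by
    intro h
    obtain ⟨t, ht⟩ := Subgroup.mem_zpowers_iff.1 (mem_zpowers_of_order_p hap h hz1)
    refine hal ?_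
    rw [← ht]
    exact ((show Commute z l from hzL l hl).zpow_left t).eq
  have hca : Commute a z := (hzL a haL).symm
  obtain ⟨i, j, hij⟩ := exists_zpow_mul_zpow hrk hap hzp hxp ha1 hza hca (hcT (hQT haQ)).symm
    (hcT hzT).symm
  by_cases hi : (p : ℤ) ∣ i
  · obtain ⟨t, rfl⟩ := hi
    rw [hij, zpow_mul, zpow_natCast, hap, one_zpow, one_mul]
    exact zpow_mem (Subgroup.mem_zpowers z) j
  exfalso
  obtain ⟨u, v, huv⟩ := (Nat.prime_iff_prime_int.mp hp).coprime_iff_not_dvd.mpr hi
  have hroot : ∀ {b : G}, b ^ p = 1 → (b ^ i) ^ v = b := fun {b} hb => by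
    rw [← zpow_mul, show i * v = 1 - p * u by linarith, zpow_sub, zpow_one, zpow_mul, zpow_natCast,
      hb, one_zpow, inv_one, mul_one]
  refine commutator_ne_top_of_fusion (x := (1 : ↥L)) hp2 Q hdvd
    (fun g _ => by simp) (one_mem _) (one_pow p) (fun e he hep g hge => ?_) hL.2.1.commutator_eq_top
  suffices h : (g : G) * e * (g : G)⁻¹ = e by
    rw [show g * e * g⁻¹ = e from Subtype.ext h, mul_inv_cancel]
    exact one_mem _
  have heT : (e : G) ∈ (T : Subgroup G) := hQT ⟨e, he, rfl⟩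
  have hep' : (e : G) ^ p = 1 := by rw [← SubmonoidClass.coe_pow, hep, OneMemClass.coe_one]
  have hze : Commute z (e : G) := hzL e e.2
  have hae : Commute a (e : G) := by
    have h1 : Commute (a ^ i) (e : G) := by
      have h2 := (hcT heT).mul_left (hze.zpow_left j).inv_left
      rwa [hij, mul_inv_cancel_right] at h2
    have := h1.zpow_left v
    rwa [hroot hap] at this
  obtain ⟨k, t, hkt⟩ := exists_zpow_mul_zpow hrk hap hzp hep' ha1 hza hca hae hze
  have hgz : (g : G) * z * (g : G)⁻¹ = z := by rw [← hzL g g.2, mul_inv_cancel_right]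
  rw [hkt, show (g : G) * (a ^ k * z ^ t) * (g : G)⁻¹ =
    (g : G) * a ^ k * (g : G)⁻¹ * ((g : G) * z * (g : G)⁻¹) ^ t by rw [conj_zpow]; group, hgz]
  congr 1
  have hgk : (g : G) * a ^ k * (g : G)⁻¹ ∈ (T : Subgroup G) := by
    have h1 : (g : G) * e * (g : G)⁻¹ ∈ (T : Subgroup G) := hQT ⟨_, hge, rfl⟩
    rw [hkt, show (g : G) * (a ^ k * z ^ t) * (g : G)⁻¹ =
      (g : G) * a ^ k * (g : G)⁻¹ * ((g : G) * z * (g : G)⁻¹) ^ t by rw [conj_zpow]; group, hgz] at h1
    have := mul_mem h1 (inv_mem (zpow_mem hzT t))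
    rwa [mul_inv_cancel_right] at this
  by_cases hk : (p : ℤ) ∣ k
  · obtain ⟨r, rfl⟩ := hk
    rw [zpow_mul, zpow_natCast, hap, one_zpow, mul_one, mul_inv_cancel]
  obtain ⟨u', v', huv'⟩ := (Nat.prime_iff_prime_int.mp hp).coprime_iff_not_dvd.mpr hk
  have hga : (g : G) * a * (g : G)⁻¹ ∈ (T : Subgroup G) := by
    have h1 : a = (a ^ k) ^ v' := by
      rw [← zpow_mul, show k * v' = 1 - p * u' by linarith, zpow_sub, zpow_one, zpow_mul,
        zpow_natCast, hap, one_zpow, inv_one, mul_one]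
    rw [h1, ← conj_zpow]
    exact zpow_mem hgk v'
  have hgx : (g : G) * x * (g : G)⁻¹ = ((g : G) * a * (g : G)⁻¹) ^ i * z ^ j := by
    rw [hij, show (g : G) * (a ^ i * z ^ j) * (g : G)⁻¹ =
      ((g : G) * a * (g : G)⁻¹) ^ i * ((g : G) * z * (g : G)⁻¹) ^ j by
        rw [conj_zpow, conj_zpow]; group, hgz]
  have heq := CfsgLib.LocalP.isolated_eq_of_mem hiso T.2 hxT (g := (g : G))
    (by rw [hgx]; exact mul_mem (zpow_mem hga i) (zpow_mem hzT j))
  rw [hgx, hij, mul_left_inj] at heq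
  have h3 := congrArg (· ^ v) heq
  rw [hroot (by rw [conj_pow, hap, mul_one, mul_inv_cancel]), hroot hap] at h3
  rw [← conj_zpow, h3]

/-- The generalised Fitting subgroup is a component without centre. -/
theorem generalizedFitting_component (hp2 : p ≠ 2) (hcore : Cfsg.pPrimeCore p G = ⊥)
    (hrk : Cfsg.PRankLE p 2 G) (hiso : Cfsg.IsIsolated x) (hx : orderOf x = p)
    (hnc : x ∉ Subgroup.center G) :
    Cfsg.IsComponent (Cfsg.generalizedFittingSubgroup G) ∧ Cfsg.fittingSubgroup G = ⊥ := by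
  have hp : p.Prime := Fact.out
  have hF : Cfsg.fittingSubgroup G = Cfsg.pCore p G := CfsgLib.Constrained.fitting_eq_pCore hcore
  have hxp : x ^ p = 1 := hx ▸ pow_orderOf_eq_one x
  -- conjugates of `x` meeting the Fitting subgroup
  have hxF : ∀ g : G, g * x * g⁻¹ ∉ Cfsg.pCore p G := by
    intro g hg
    have hxF : x ∈ Cfsg.pCore p G := by
      have := (inferInstance : (Cfsg.pCore p G).Normal).conj_mem _ hg g⁻¹
      simpa [mul_assoc] using this
    refine hnc (Subgroup.mem_center_iff.2 fun h => ?_)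
    have := CfsgLib.LocalP.isolated_eq_of_mem hiso CfsgLib.Constrained.isPGroup_pCore hxF
      ((inferInstance : (Cfsg.pCore p G).Normal).conj_mem _ hxF h)
    calc h * x = h * x * h⁻¹ * h := by group
      _ = x * h := by rw [this]
  have hFT : ∀ T : Sylow p G, Cfsg.pCore p G ≤ (T : Subgroup G) := by
    intro T
    have hpc : IsPGroup p ↥(Cfsg.pCore p G) := CfsgLib.Constrained.isPGroup_pCore
    have hsup : IsPGroup p ↥((T : Subgroup G) ⊔ Cfsg.pCore p G) :=
      T.2.to_sup_of_normal_right hpc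
    exact (T.is_maximal' hsup le_sup_left) ▸ le_sup_right
  -- there is a component
  have hex : ∃ L : Subgroup G, Cfsg.IsComponent L := by
    by_contra hno
    push Not at hno
    have hlay : Cfsg.layer G = ⊥ := CfsgLib.Cores.layer_eq_bot_iff.2 hno
    obtain ⟨T, hT⟩ := (CfsgLib.LocalP.isPGroup_zpowers_of_orderOf (p := p) (x := x)
      ⟨1, by rw [pow_one]; exact hx⟩).exists_le_sylow
    have hxC : x ∈ Subgroup.centralizer (Cfsg.generalizedFittingSubgroup G : Set G) := by
      rw [Cfsg.generalizedFittingSubgroup, hlay, bot_sup_eq, hF]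
      exact Subgroup.mem_centralizer_iff.2 fun u hu => (CfsgLib.LocalP.isolated_commute_of_mem hiso
        T.2 (hT (Subgroup.mem_zpowers x)) u (hFT T hu)).symm
    refine hxF 1 ?_
    rw [one_mul, inv_one, mul_one, ← hF]
    exact CfsgLib.Cores.centralizer_generalizedFitting_le_fitting hxC
  have hdvd : ∀ L : Subgroup G, Cfsg.IsComponent L → p ∣ Nat.card L := by
    intro L hL
    by_contra hd
    refine CfsgLib.Cores.ne_bot_of_isComponent hL ?_
    have h0 := CfsgLib.NoComponent.pPrimeCore_subnormal_eq_bot hcore hL.1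
    have htop : (⊤ : Subgroup ↥L) ≤ Cfsg.pPrimeCore p ↥L :=
      CfsgLib.Constrained.le_pPrimeCore_of_not_dvd inferInstance (by rwa [Subgroup.card_top])
    rw [h0, le_bot_iff] at htop
    rw [← Subgroup.range_subtype L, MonoidHom.range_eq_map, htop, Subgroup.map_bot]
  -- the component is unique
  have huniq : ∀ L₁ L₂ : Subgroup G, Cfsg.IsComponent L₁ → Cfsg.IsComponent L₂ → L₁ = L₂ := by
    intro L₁ L₂ h₁ h₂
    by_contra hne
    have hc : ∀ u ∈ L₁, ∀ v ∈ L₂, u * v = v * u := fun u hu v hv =>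
      CfsgLib.Cores.commute_of_commutator_eq_bot (CfsgLib.Cores.commutator_eq_bot_of_ne h₁ h₂ hne) hu hv
    let Q₁ : Sylow p ↥L₁ := default
    let Q₂ : Sylow p ↥L₂ := default
    have hn : (Q₁ : Subgroup ↥L₁).map L₁.subtype ≤
        Subgroup.normalizer (((Q₂ : Subgroup ↥L₂).map L₂.subtype : Subgroup G) : Set G) := by
      intro u hu
      refine Subgroup.centralizer_le_normalizer _ ?_ 
      exact Subgroup.mem_centralizer_iff.2 fun v hv =>
        (hc u (Subgroup.map_subtype_le _ hu) v (Subgroup.map_subtype_le _ hv)).symm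
    obtain ⟨T, hT⟩ := ((Q₁.2.map L₁.subtype).to_sup_of_normal_right' (Q₂.2.map L₂.subtype)
      hn).exists_le_sylow
    obtain ⟨R, hR⟩ := (CfsgLib.LocalP.isPGroup_zpowers_of_orderOf (p := p) (x := x)
      ⟨1, by rw [pow_one]; exact hx⟩).exists_le_sylow
    obtain ⟨c, hc'⟩ := MulAction.exists_smul_eq G R T
    have hxT : c * x * c⁻¹ ∈ (T : Subgroup G) := by
      rw [← hc']
      exact ⟨x, hR (Subgroup.mem_zpowers x), rfl⟩
    have hx' : (c * x * c⁻¹) ^ p = 1 := by rw [conj_pow, hxp, mul_one, mul_inv_cancel]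
    obtain ⟨a₁, ha₁, ha₁p, l₁, hl₁, hal₁⟩ := exists_noncentral_of_component hp2 h₁ (hdvd _ h₁) Q₁
    obtain ⟨a₂, ha₂, ha₂p, l₂, hl₂, hal₂⟩ := exists_noncentral_of_component hp2 h₂ (hdvd _ h₂) Q₂
    have h12 := mem_zpowers_of_commute_component hp2 hrk (isolated_conjugate hiso c) hx' h₁
      (hdvd _ h₁) Q₁ T (le_sup_left.trans hT) hxT (hT (Subgroup.mem_sup_right ha₂)) ha₂p
      (fun h => hal₂ (by rw [h, one_mul, mul_one]))
      (fun l hl => (hc l hl a₂ (Subgroup.map_subtype_le _ ha₂)).symm)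
    have h21 := mem_zpowers_of_commute_component hp2 hrk (isolated_conjugate hiso c) hx' h₂
      (hdvd _ h₂) Q₂ T (le_sup_right.trans hT) hxT (hT (Subgroup.mem_sup_left ha₁)) ha₁p
      (fun h => hal₁ (by rw [h, one_mul, mul_one]))
      (fun l hl => hc a₁ (Subgroup.map_subtype_le _ ha₁) l hl)
    have hx1 : c * x * c⁻¹ ≠ 1 := by
      intro h
      rw [mul_inv_eq_one, mul_eq_left] at h
      rw [h, orderOf_one] at hx
      exact hp.one_lt.ne hx
    obtain ⟨t, ht⟩ := Subgroup.mem_zpowers_iff.1 (mem_zpowers_of_order_p ha₁p h21 hx1)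
    obtain ⟨r, hr⟩ := Subgroup.mem_zpowers_iff.1 h12
    refine hal₁ ?_
    rw [← ht, ← hr, ← zpow_mul]
    exact (Commute.zpow_left
      (show Commute a₂ l₁ from (hc l₁ hl₁ a₂ (Subgroup.map_subtype_le _ ha₂)).symm) _).eq
  obtain ⟨L, hL⟩ := hex
  have hlay : Cfsg.layer G = L :=
    le_antisymm (CfsgLib.Cores.layer_le fun M hM => (huniq M L hM hL).le) (CfsgLib.Cores.le_layer hL)
  -- the Fitting subgroup is trivial
  have hFbot : Cfsg.fittingSubgroup G = ⊥ := by
    rw [hF]
    by_contra hne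
    let Q : Sylow p ↥L := default
    obtain ⟨T, hT⟩ := (Q.2.map L.subtype).exists_le_sylow
    obtain ⟨R, hR⟩ := (CfsgLib.LocalP.isPGroup_zpowers_of_orderOf (p := p) (x := x)
      ⟨1, by rw [pow_one]; exact hx⟩).exists_le_sylow
    obtain ⟨c, hc'⟩ := MulAction.exists_smul_eq G R T
    have hxT : c * x * c⁻¹ ∈ (T : Subgroup G) := by
      rw [← hc']
      exact ⟨x, hR (Subgroup.mem_zpowers x), rfl⟩
    have hpF : p ∣ Nat.card (Cfsg.pCore p G) := by
      obtain ⟨k, hk⟩ := IsPGroup.iff_card.1 (CfsgLib.Constrained.isPGroup_pCore (p := p) (G := G))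
      rw [hk]
      refine dvd_pow_self p ?_
      rintro rfl
      exact hne (Subgroup.card_eq_one.1 (by rw [hk, pow_zero]))
    obtain ⟨z, hz⟩ := exists_prime_orderOf_dvd_card' p hpF
    have hzL : ∀ l ∈ L, (z : G) * l = l * z := fun l hl => by
      have := CfsgLib.Cores.commutator_component_fitting hL
      exact (CfsgLib.Cores.commute_of_commutator_eq_bot this hl
        (show (z : G) ∈ Cfsg.fittingSubgroup G by rw [hF]; exact z.2)).symm
    have hzo : orderOf (z : G) = p := by rw [Subgroup.orderOf_coe, hz]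
    have := mem_zpowers_of_commute_component hp2 hrk (isolated_conjugate hiso c)
      (by rw [conj_pow, hxp, mul_one, mul_inv_cancel]) hL (hdvd _ hL) Q T hT hxT (hFT T z.2)
      (by have h7 := pow_orderOf_eq_one (z : G); rwa [hzo] at h7)
      (fun h => by rw [h, orderOf_one] at hzo; exact hp.one_lt.ne hzo) hzL
    exact hxF c ((Subgroup.zpowers_le.2 z.2) this)
  refine ⟨?_, hFbot⟩
  rw [Cfsg.generalizedFittingSubgroup, hlay, hFbot, sup_bot_eq]
  exact hL

end CfsgLib.IsolatedRankTwo
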